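import Cfsg.Agent.H97.M22.Extra

/-!
The centraliser, in the automorphism group, of the product of two commuting members.
-/

set_option autoImplicit false
set_option linter.unusedSectionVars false

namespace Cfsg.Agent.H69.M22Aut

open Cfsg Cfsg.Agent.H97.M22 Cfsg.Agent.H17.UPoints Cfsg.Agent.H43.FischerTwins

variable {G : Type*} [Group G]

/-- What is used of the automorphism group. -/
structure AutData (D : Set G) : Prop where
  pres : ∀ φ : MulAut G, ∀ x ∈ D, φ x ∈ D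
  center : Subgroup.center G = ⊥
  two : ∀ φ ψ : MulAut G, φ ∉ (MulAut.conj : G →* MulAut G).range →
    ψ ∉ (MulAut.conj : G →* MulAut G).range → φ * ψ ∈ (MulAut.conj : G →* MulAut G).range
  outer : ∃ φ : MulAut G, φ ∉ (MulAut.conj : G →* MulAut G).range

theorem conj_injective (hc : Subgroup.center G = ⊥) :
    Function.Injective (MulAut.conj : G →* MulAut G) := by
  rw [injective_iff_map_eq_one]
  intro g hg
  rw [← Subgroup.mem_bot, ← hc, Subgroup.mem_center_iff]
  intro x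
  have h := DFunLike.congr_fun hg x
  rw [MulAut.conj_apply, MulAut.one_apply, mul_inv_eq_iff_eq_mul] at h
  exact h.symm

theorem conj_map (φ : MulAut G) (x : G) : φ * MulAut.conj x * φ⁻¹ = MulAut.conj (φ x) := by
  ext y
  simp [map_mul, map_inv]

theorem finite_aut [Finite G] : Finite (MulAut G) :=
  Finite.of_injective (fun φ : MulAut G => (φ : G → G)) fun _ _ h => MulEquiv.ext (congrFun h)

theorem autData_of_bound [Finite G] {D : Set G} (hpres : ∀ φ : MulAut G, ∀ x ∈ D, φ x ∈ D)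
    (hc : Subgroup.center G = ⊥) (hb : Nat.card (MulAut G) ≤ 2 * Nat.card G)
    (hout : ∃ φ : MulAut G, φ ∉ (MulAut.conj : G →* MulAut G).range) : AutData D := by
  haveI := finite_aut (G := G)
  refine ⟨hpres, hc, fun φ ψ hφ hψ => ?_, hout⟩
  have hne : (MulAut.conj : G →* MulAut G).range.index ≠ 1 := fun h => by
    rw [Subgroup.index_eq_one] at h
    exact hφ (h ▸ Subgroup.mem_top φ)
  have h0 : (MulAut.conj : G →* MulAut G).range.index ≠ 0 := Subgroup.index_ne_zero_of_finite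
  have hcard := (MulAut.conj : G →* MulAut G).range.card_mul_index
  rw [← Nat.card_congr (MonoidHom.ofInjective (conj_injective hc)).toEquiv] at hcard
  have hle : (MulAut.conj : G →* MulAut G).range.index ≤ 2 :=
    Nat.le_of_mul_le_mul_left (hcard.trans_le (hb.trans (mul_comm _ _).le)) Nat.card_pos
  have hidx : (MulAut.conj : G →* MulAut G).range.index = 2 := by omega
  rw [Subgroup.mul_mem_iff_of_index_two hidx]
  exact ⟨fun h => absurd h hφ, fun h => absurd h hψ⟩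

theorem AutData.sq_mem {D : Set G} (hA : AutData D) (φ : MulAut G) :
    φ * φ ∈ (MulAut.conj : G →* MulAut G).range := by
  by_cases h : φ ∈ (MulAut.conj : G →* MulAut G).range
  · exact mul_mem h h
  · exact hA.two φ φ h h

variable [Finite G] {F : Type} [Field F] [Fintype F] [DecidableEq F]

/-- The centraliser of the inner automorphism of the product. -/
abbrev CA (d a : G) : Subgroup (MulAut G) :=
  Subgroup.centralizer ({MulAut.conj (d * a)} : Set (MulAut G))

theorem mem_CA_iff (hc : Subgroup.center G = ⊥) {d a : G} {φ : MulAut G} :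
    φ ∈ CA d a ↔ φ (d * a) = d * a := by
  rw [Subgroup.mem_centralizer_singleton_iff]
  constructor
  · intro h
    refine conj_injective hc ?_
    rw [← conj_map, h, mul_inv_cancel_right]
  · intro h
    have := conj_map φ (d * a)
    rwa [h, mul_inv_eq_iff_eq_mul] at this

variable {D : Set G} {d a : G} {hF : Fintype.card F = 4} (P : Frame D d a hF) (hD : Data D hF)
  (hA : AutData D)
include P hD hA

theorem perm_of_mem {φ : MulAut G} (hφ : φ ∈ CA d a) :
    (φ d = d ∧ φ a = a) ∨ (φ d = a ∧ φ a = d) := by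
  rw [mem_CA_iff hA.center, map_mul] at hφ
  refine hD.pairs (hA.pres φ d P.hd) (hA.pres φ a P.ha.1) P.hd P.ha.1 (P.ha.2.2.map φ) ?_
    P.ha.2.2 hφ
  exact fun h => P.ha.2.1.symm (φ.injective h)

theorem map_mem_K {φ : MulAut G} (hφ : φ ∈ CA d a) {x : G} (hx : x ∈ P.K) : φ x ∈ P.K := by
  obtain ⟨h1, h2⟩ := P.mem_K_iff.1 hx
  have g1 := h1.map φ
  have g2 := h2.map φ
  rcases perm_of_mem P hD hA hφ with ⟨e1, e2⟩ | ⟨e1, e2⟩ <;> rw [e1] at g1 <;> rw [e2] at g2
  · exact P.mem_K_iff.2 ⟨g1, g2⟩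
  · exact P.mem_K_iff.2 ⟨g2, g1⟩

theorem exists_outer_fix : ∃ φ : MulAut G, φ ∉ (MulAut.conj : G →* MulAut G).range ∧
    φ d = d ∧ φ a = a := by
  obtain ⟨φ, hφ⟩ := hA.outer
  obtain ⟨b, hb, hab, hcab⟩ := hD.exists_third P.hd P.ha
  have hm : ∀ x ∈ Sset D d, φ x ∈ Sset D (φ d) := fun x hx =>
    ⟨hA.pres φ x hx.1, fun e => hx.2.1 (φ.injective e), hx.2.2.map φ⟩
  obtain ⟨g, g1, g2, -⟩ := hD.exists_conj_triple (hA.pres φ d P.hd) (hm a P.ha) (hm b hb)
    (fun e => hab (φ.injective e)) (hcab.map φ) P.hd P.ha hb hab hcab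
  refine ⟨MulAut.conj g * φ, fun h => hφ ?_, g1, g2⟩
  rwa [Subgroup.mul_mem_cancel_left _ (MonoidHom.mem_range.2 ⟨g, rfl⟩)] at h

theorem conj_mem_CA {x : G} : MulAut.conj x ∈ CA d a ↔ x ∈ P.C := by
  rw [mem_CA_iff hA.center, MulAut.conj_apply, mul_inv_eq_iff_eq_mul,
    Subgroup.mem_centralizer_singleton_iff]

theorem exists_of_mem_range {φ : MulAut G} (hφ : φ ∈ CA d a)
    (hr : φ ∈ (MulAut.conj : G →* MulAut G).range) : ∃ x ∈ P.C, MulAut.conj x = φ := by
  obtain ⟨x, rfl⟩ := hr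
  exact ⟨x, (conj_mem_CA P hD hA).1 hφ, rfl⟩

theorem card_CA : Nat.card ↥(CA d a) = 4 * (1024 * 25920) := by
  haveI := finite_aut (G := G)
  obtain ⟨φ, hφ, h1, h2⟩ := exists_outer_fix P hD hA
  have hφC : φ ∈ CA d a := (mem_CA_iff hA.center).2 (by rw [map_mul, h1, h2])
  set R := (MulAut.conj : G →* MulAut G).range with hR
  have hle : P.C.map MulAut.conj ≤ CA d a := by
    rintro _ ⟨x, hx, rfl⟩
    exact (conj_mem_CA P hD hA).2 hx
  have hmem : ∀ b : ↥(CA d a), b ∈ (P.C.map MulAut.conj).subgroupOf (CA d a) ↔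
      (b : MulAut G) ∈ R := by
    intro b
    rw [Subgroup.mem_subgroupOf]
    exact ⟨fun ⟨x, _, e⟩ => ⟨x, e⟩, fun h => exists_of_mem_range P hD hA b.2 h⟩
  have hidx : ((P.C.map MulAut.conj).subgroupOf (CA d a)).index = 2 := by
    refine Subgroup.index_eq_two_iff.2 ⟨⟨φ, hφC⟩, fun b => ?_⟩
    rw [hmem, hmem, Subgroup.coe_mul]
    by_cases hb : (b : MulAut G) ∈ R
    · exact Or.inr ⟨hb, fun h => hφ ((Subgroup.mul_mem_cancel_left _ hb).1 h)⟩
    · exact Or.inl ⟨hA.two _ _ hb hφ, hb⟩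
  have h := ((P.C.map MulAut.conj).subgroupOf (CA d a)).card_mul_index
  rw [hidx, Nat.card_congr (Subgroup.subgroupOfEquivOfLe hle).toEquiv,
    Subgroup.card_map_of_injective (conj_injective hA.center), P.card_C hD] at h
  omega

/-- An automorphism centralising the product, on `K`. -/
def onK (φ : ↥(CA d a)) : ↥P.K →* ↥P.K :=
  (((φ : MulAut G) : G →* G).comp P.K.subtype).codRestrict P.K
    fun x => map_mem_K P hD hA φ.2 x.2

theorem coe_onK (φ : ↥(CA d a)) (x : ↥P.K) :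
    (onK P hD hA φ x : G) = (φ : MulAut G) x := rfl

theorem onK_surjective (φ : ↥(CA d a)) : Function.Surjective (onK P hD hA φ) := fun y =>
  ⟨onK P hD hA φ⁻¹ y, Subtype.ext (by simp [coe_onK])⟩

theorem ker_le (φ : ↥(CA d a)) :
    (P.pi hD).ker ≤ ((P.pi hD).comp (onK P hD hA φ)).ker := by
  haveI := simple_SU_four hF
  have hf : Function.Surjective ((P.pi hD).comp (onK P hD hA φ)) :=
    (P.pi_surjective hD).comp (onK_surjective P hD hA φ)
  rcases ((MonoidHom.normal_ker (P.pi hD)).map _ hf).eq_bot_or_eq_top with h | h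
  · exact fun x hx => MonoidHom.mem_ker.2
      (Subgroup.mem_bot.1 (h.le (Subgroup.mem_map_of_mem _ hx)))
  · exfalso
    have hle := Nat.le_of_dvd (by rw [P.card_ker hD]; norm_num)
      (Subgroup.card_map_dvd (H := (P.pi hD).ker) ((P.pi hD).comp (onK P hD hA φ)))
    rw [h, Subgroup.card_top, card_SU_four hF, P.card_ker hD] at hle
    omega

theorem map_mem_E {φ : MulAut G} (hφ : φ ∈ CA d a) {x : G} (hx : x ∈ P.E hD) : φ x ∈ P.E hD := by
  obtain ⟨e, he, rfl⟩ := Subgroup.mem_map.1 hx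
  exact Subgroup.mem_map.2 ⟨onK P hD hA ⟨φ, hφ⟩ e, ker_le P hD hA ⟨φ, hφ⟩ he, rfl⟩

/-- The map induced on the quotient of `K`. -/
noncomputable def rhoFun (φ : ↥(CA d a)) : ↥(Cfsg.SU 4 F 2) →* ↥(Cfsg.SU 4 F 2) :=
  (P.pi hD).liftOfSurjective (P.pi_surjective hD)
    ⟨(P.pi hD).comp (onK P hD hA φ), ker_le P hD hA φ⟩

theorem rhoFun_apply (φ : ↥(CA d a)) (x : ↥P.K) :
    rhoFun P hD hA φ (P.pi hD x) = P.pi hD (onK P hD hA φ x) :=
  MonoidHom.liftOfRightInverse_comp_apply _ _ _ _ x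

theorem rhoFun_mul (φ ψ : ↥(CA d a)) :
    rhoFun P hD hA (φ * ψ) = (rhoFun P hD hA φ).comp (rhoFun P hD hA ψ) := by
  refine MonoidHom.ext fun h => ?_
  obtain ⟨x, rfl⟩ := P.pi_surjective hD h
  rw [MonoidHom.comp_apply, rhoFun_apply, rhoFun_apply, rhoFun_apply]
  exact congrArg _ (Subtype.ext rfl)

theorem rhoFun_one : rhoFun P hD hA 1 = MonoidHom.id _ := by
  refine MonoidHom.ext fun h => ?_
  obtain ⟨x, rfl⟩ := P.pi_surjective hD h
  rw [rhoFun_apply, MonoidHom.id_apply]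
  exact congrArg _ (Subtype.ext rfl)

/-- The action on the quotient of `K`. -/
noncomputable def rhoA : ↥(CA d a) →* MulAut ↥(Cfsg.SU 4 F 2) :=
  MonoidHom.mk' (fun φ => MonoidHom.toMulEquiv (rhoFun P hD hA φ) (rhoFun P hD hA φ⁻¹)
      (by rw [← rhoFun_mul, inv_mul_cancel, rhoFun_one])
      (by rw [← rhoFun_mul, mul_inv_cancel, rhoFun_one]))
    fun φ ψ => MulEquiv.ext fun h => DFunLike.congr_fun (rhoFun_mul P hD hA φ ψ) h

theorem rhoA_apply (φ : ↥(CA d a)) (x : ↥P.K) :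
    rhoA P hD hA φ (P.pi hD x) = P.pi hD (onK P hD hA φ x) := rhoFun_apply P hD hA φ x

theorem rhoA_eq_one (φ : ↥(CA d a)) :
    rhoA P hD hA φ = 1 ↔ ∀ x : ↥P.K, P.pi hD (onK P hD hA φ x) = P.pi hD x := by
  refine ⟨fun h x => ?_, fun h => MulEquiv.ext fun g => ?_⟩
  · rw [← rhoA_apply, h, MulAut.one_apply]
  · obtain ⟨x, rfl⟩ := P.pi_surjective hD g
    rw [rhoA_apply, MulAut.one_apply, h]

theorem rhoA_conj (x : ↥P.C) :
    rhoA P hD hA ⟨MulAut.conj (x : G), (conj_mem_CA P hD hA).2 x.2⟩ = P.rho hD x := by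
  refine MulEquiv.ext fun g => ?_
  obtain ⟨y, rfl⟩ := P.pi_surjective hD g
  rw [rhoA_apply, P.rho_apply]
  exact congrArg _ (Subtype.ext rfl)

theorem rhoA_surjective : Function.Surjective (rhoA P hD hA) := fun α => by
  obtain ⟨x, rfl⟩ := P.rho_surjective hD α
  exact ⟨_, rhoA_conj P hD hA x⟩

theorem card_ker_rhoA : Nat.card ↥(rhoA P hD hA).ker = 2 ^ 11 := by
  have h1 := (P.rho hD).ker.card_mul_index
  rw [Subgroup.index_ker, P.ker_rho hD, P.card_C hD,
    Nat.card_congr (Subgroup.subgroupOfEquivOfLe (P.E_le_C hD)).toEquiv, P.card_E hD,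
    MonoidHom.range_eq_top.2 (P.rho_surjective hD), Subgroup.card_top] at h1
  have h2 := (rhoA P hD hA).ker.card_mul_index
  rw [Subgroup.index_ker, MonoidHom.range_eq_top.2 (rhoA_surjective P hD hA), Subgroup.card_top,
    card_CA P hD hA] at h2
  have h3 : Nat.card (MulAut ↥(Cfsg.SU 4 F 2)) = 51840 := by omega
  rw [h3] at h2
  omega

end Cfsg.Agent.H69.M22Aut
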