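import Cfsg.Agent.H69.M22Aut.Stab
import Cfsg.Agent.H97.M22.Fitting

/-!
The kernel of the action on the quotient of `K`: it is the generalised Fitting subgroup.
-/

set_option autoImplicit false
set_option linter.unusedSectionVars false

namespace Cfsg.Agent.H69.M22Aut

open Cfsg Cfsg.Agent.H97.M22 Cfsg.Agent.H17.UPoints Cfsg.Agent.H43.FischerTwins

variable {G : Type*} [Group G] [Finite G] {F : Type} [Field F] [Fintype F] [DecidableEq F]
  {D : Set G} {d a : G} {hF : Fintype.card F = 4} (P : Frame D d a hF) (hD : Data D hF)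
  (hA : AutData D)

/-- The kernel, in the automorphism group. -/
noncomputable abbrev Q0 : Subgroup (MulAut G) := (rhoA P hD hA).ker.map (CA d a).subtype

include P hD hA

theorem card_Q0 : Nat.card ↥(Q0 P hD hA) = 2 ^ 11 := by
  rw [Subgroup.card_map_of_injective (Subgroup.subtype_injective _), card_ker_rhoA P hD hA]

theorem mem_Q0_iff {φ : MulAut G} : φ ∈ Q0 P hD hA ↔
    ∃ hC : φ ∈ CA d a, rhoA P hD hA ⟨φ, hC⟩ = 1 := by
  constructor
  · intro h
    obtain ⟨x, hx, rfl⟩ := Subgroup.mem_map.1 h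
    exact ⟨x.2, hx⟩
  · rintro ⟨hC, h⟩
    exact Subgroup.mem_map.2 ⟨⟨φ, hC⟩, h, rfl⟩

theorem Q0_le : Q0 P hD hA ≤ CA d a := Subgroup.map_subtype_le _

theorem conjE_le : (P.E hD).map MulAut.conj ≤ Q0 P hD hA := by
  rintro _ ⟨e, he, rfl⟩
  have hC : e ∈ P.C := P.E_le_C hD he
  refine (mem_Q0_iff P hD hA).2 ⟨(conj_mem_CA P hD hA).2 hC, ?_⟩
  exact (rhoA_conj P hD hA ⟨e, hC⟩).trans ((P.rho_eq_one_iff hD _).2 he)

theorem j_mem_Q0 : MulAut.conj (d * a) ∈ Q0 P hD hA :=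
  conjE_le P hD hA (Subgroup.mem_map_of_mem _ (P.j_mem_E hD))

theorem conj_mem_Q0_iff {x : G} : MulAut.conj x ∈ Q0 P hD hA ↔ x ∈ P.E hD := by
  refine ⟨fun h => ?_, fun h => conjE_le P hD hA (Subgroup.mem_map_of_mem _ h)⟩
  obtain ⟨hC, h1⟩ := (mem_Q0_iff P hD hA).1 h
  have hx := (conj_mem_CA P hD hA).1 hC
  rw [rhoA_conj P hD hA ⟨x, hx⟩] at h1
  exact (P.rho_eq_one_iff hD _).1 h1

variable (hprim : Cfsg.IsPrimitiveUnderConj D) (h22 : Cfsg.IsOfTypeM22 G D)
include hprim h22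

theorem exists_conj_of_fix {φ : MulAut G} (hφ : φ ∈ Q0 P hD hA) (hd : φ d = d) :
    ∃ x ∈ P.E hD, MulAut.conj x = φ := by
  obtain ⟨hC, h1⟩ := (mem_Q0_iff P hD hA).1 hφ
  have ha : φ a = a := by
    rcases perm_of_mem P hD hA hC with h | h
    · exact h.2
    · exact absurd (h.1.symm.trans hd) P.ha.2.1
  obtain ⟨x, -, rfl⟩ :=
    exists_of_mem_range P hD hA hC (inner_of_trivial P hD hA hprim h22 hd ha hC h1)
  exact ⟨x, (conj_mem_Q0_iff P hD hA).1 hφ, rfl⟩

/-- An element of the kernel exchanging the two members. -/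
theorem exists_t : ∃ t ∈ Q0 P hD hA, t d = a ∧ t a = d := by
  by_contra hno
  push Not at hno
  have hle : Q0 P hD hA ≤ (P.E hD).map MulAut.conj := by
    intro φ hφ
    rcases perm_of_mem P hD hA (Q0_le P hD hA hφ) with h | h
    · obtain ⟨x, hx, rfl⟩ := exists_conj_of_fix P hD hA hprim h22 hφ h.1
      exact Subgroup.mem_map_of_mem _ hx
    · exact absurd h.2 (hno φ hφ h.1)
  haveI := finite_aut (G := G)
  have := Subgroup.card_le_of_le hle
  rw [card_Q0, Subgroup.card_map_of_injective (conj_injective hA.center), P.card_E hD] at this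
  norm_num at this

/-- Every element of the kernel is inner by `E` or `t` times one. -/
theorem cases_Q0 {t : MulAut G} (ht : t ∈ Q0 P hD hA) (htd : t d = a) (hta : t a = d)
    {φ : MulAut G} (hφ : φ ∈ Q0 P hD hA) :
    (∃ x ∈ P.E hD, φ = MulAut.conj x) ∨ ∃ x ∈ P.E hD, φ = t * MulAut.conj x := by
  rcases perm_of_mem P hD hA (Q0_le P hD hA hφ) with h | h
  · obtain ⟨x, hx, e⟩ := exists_conj_of_fix P hD hA hprim h22 hφ h.1
    exact Or.inl ⟨x, hx, e.symm⟩
  · obtain ⟨x, hx, e⟩ := exists_conj_of_fix P hD hA hprim h22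
      (mul_mem (inv_mem ht) hφ) (show t⁻¹ (φ d) = d by
        rw [h.1, ← htd, MulAut.inv_apply_self])
    exact Or.inr ⟨x, hx, by rw [e, mul_inv_cancel_left]⟩

omit hprim h22 in
/-- An automorphism fixing `E` pointwise lies in the kernel. -/
theorem mem_Q0_of_fix {φ : MulAut G} (hE : ∀ e ∈ P.E hD, φ e = e) : φ ∈ Q0 P hD hA := by
  have hd : φ d = d := hE d (P.V_le_E hD (Subgroup.subset_closure (by simp)))
  have ha : φ a = a := hE a (P.V_le_E hD (Subgroup.subset_closure (by simp)))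
  have hC : φ ∈ CA d a := (mem_CA_iff hA.center).2 (by rw [map_mul, hd, ha])
  refine (mem_Q0_iff P hD hA).2 ⟨hC, (rhoA_eq_one P hD hA _).2 fun k => ?_⟩
  have hy : k⁻¹ * onK P hD hA ⟨φ, hC⟩ k ∈ (P.pi hD).ker := by
    refine P.mem_ker_of_commute hD fun e he => ?_
    have heE : (e : G) ∈ P.E hD := Subgroup.mem_map_of_mem _ he
    have h1 : (k : G) * e * (k : G)⁻¹ ∈ P.E hD := P.E_conj hD (P.K_le_C hD k.2) heE
    have h2 := hE _ h1
    rw [map_mul, map_mul, map_inv, hE _ heE] at h2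
    refine commute_coe.1 ?_
    show (k : G)⁻¹ * φ k * e = e * ((k : G)⁻¹ * φ k)
    calc (k : G)⁻¹ * φ k * e = (k : G)⁻¹ * (φ k * e * (φ k)⁻¹) * φ k := by group
      _ = e * ((k : G)⁻¹ * φ k) := by rw [h2]; group
  rw [MonoidHom.mem_ker, map_mul, map_inv, inv_mul_eq_one] at hy
  exact hy.symm

/-- The centraliser of the kernel. -/
theorem eq_one_or_j {φ : MulAut G} (hφ : ∀ ψ ∈ Q0 P hD hA, Commute φ ψ) :
    φ = 1 ∨ φ = MulAut.conj (d * a) := by
  have hE : ∀ e ∈ P.E hD, φ e = e := fun e he => by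
    refine conj_injective hA.center ?_
    rw [← conj_map, (hφ _ ((conj_mem_Q0_iff P hD hA).2 he)).eq, mul_inv_cancel_right]
  have hQ := mem_Q0_of_fix P hD hA hE
  obtain ⟨x, hx, rfl⟩ := exists_conj_of_fix P hD hA hprim h22 hQ
    (hE d (P.V_le_E hD (Subgroup.subset_closure (by simp))))
  obtain ⟨u, hu, rfl⟩ := Subgroup.mem_map.1 hx
  have hV : (u : G) ∈ Subgroup.closure ({d, a} : Set G) :=
    P.mem_V_of_commute hD hu fun e he => commute_coe.1
      (mul_inv_eq_iff_eq_mul.1 (hE _ (Subgroup.mem_map_of_mem _ he)))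
  obtain ⟨t, ht, htd, hta⟩ := exists_t P hD hA hprim h22
  have hfix : t (u : G) = u := by
    refine conj_injective hA.center ?_
    rw [← conj_map]
    show t * MulAut.conj (P.K.subtype u) * t⁻¹ = MulAut.conj (P.K.subtype u)
    rw [← (hφ t ht).eq, mul_inv_cancel_right]
  rcases (P.mem_V_iff hD).1 hV with h | h | h | h
  · exact Or.inl (by rw [show P.K.subtype u = (u : G) from rfl, h, map_one])
  · rw [h, htd] at hfix; exact absurd hfix P.ha.2.1
  · rw [h, hta] at hfix; exact absurd hfix.symm P.ha.2.1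
  · exact Or.inr (by rw [show P.K.subtype u = (u : G) from rfl, h])

omit hprim h22 in
theorem pCore_eq : Cfsg.pCore 2 ↥(CA d a) = (rhoA P hD hA).ker := by
  haveI : Fact (Nat.Prime 2) := ⟨Nat.prime_two⟩
  haveI := finite_aut (G := G)
  refine le_antisymm ?_ (H74.le_pCore_of_normal (MonoidHom.normal_ker _)
    (IsPGroup.of_card (card_ker_rhoA P hD hA)))
  haveI := simple_SU_four hF
  set L := (Cfsg.pCore 2 ↥(CA d a)).map (rhoA P hD hA) with hL
  have hLn : L.Normal := (H19.pCore_normal 2 _).map _ (rhoA_surjective P hD hA)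
  have hLp : IsPGroup 2 ↥L := (H19.pCore_isPGroup 2).map _
  have hinj : Function.Injective (MulAut.conj : ↥(Cfsg.SU 4 F 2) →* _) :=
    conj_injective (center_SU_four hF)
  have hbot : L.comap (MulAut.conj : ↥(Cfsg.SU 4 F 2) →* _) = ⊥ := by
    rcases (hLn.comap (MulAut.conj : ↥(Cfsg.SU 4 F 2) →* _)).eq_bot_or_eq_top with h | h
    · exact h
    · exfalso
      have hp := hLp.comap_of_injective _ hinj
      obtain ⟨n, hn⟩ := IsPGroup.iff_card.1 hp
      rw [h, Subgroup.card_top, card_SU_four hF] at hn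
      have h3 : 3 ∣ 2 ^ n := hn ▸ (by norm_num : 3 ∣ 25920)
      have := Nat.prime_three.dvd_of_dvd_pow h3
      norm_num at this
  intro c hc
  rw [MonoidHom.mem_ker]
  refine MulEquiv.ext fun x => ?_
  have hn : rhoA P hD hA c ∈ L := Subgroup.mem_map_of_mem _ hc
  have h1 := mul_mem hn (hLn.conj_mem _ (inv_mem hn) (MulAut.conj x))
  have h2 : rhoA P hD hA c * (MulAut.conj x * (rhoA P hD hA c)⁻¹ * (MulAut.conj x)⁻¹) =
      MulAut.conj (rhoA P hD hA c x * x⁻¹) := by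
    rw [map_mul, map_inv, ← conj_map]; group
  rw [h2, ← Subgroup.mem_comap, hbot, Subgroup.mem_bot, mul_inv_eq_one] at h1
  rw [MulAut.one_apply, h1]

theorem fitting_eq : Cfsg.generalizedFittingSubgroup ↥(CA d a) = (rhoA P hD hA).ker := by
  haveI : Fact (Nat.Prime 2) := ⟨Nat.prime_two⟩
  haveI := finite_aut (G := G)
  rw [← pCore_eq P hD hA]
  refine H73.charP_iff_generalizedFitting.1 ?_
  rw [pCore_eq P hD hA]
  intro c hc
  have h : ∀ ψ ∈ Q0 P hD hA, Commute (c : MulAut G) ψ := fun ψ hψ => by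
    obtain ⟨hC, h1⟩ := (mem_Q0_iff P hD hA).1 hψ
    exact (congrArg Subtype.val (Subgroup.mem_centralizer_iff.1 hc ⟨ψ, hC⟩ h1)).symm
  obtain ⟨hC, h1⟩ : ∃ hC : (c : MulAut G) ∈ CA d a, rhoA P hD hA ⟨c, hC⟩ = 1 := by
    refine (mem_Q0_iff P hD hA).1 ?_
    rcases eq_one_or_j P hD hA hprim h22 h with e | e <;> rw [e]
    · exact one_mem _
    · exact j_mem_Q0 P hD hA
  exact h1

end Cfsg.Agent.H69.M22Aut
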