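import Cfsg.Agent.H69.M22Aut.Swap

/-!
The kernel is extraspecial of order `2 ^ 11` and contains its centraliser.
-/

set_option autoImplicit false
set_option linter.unusedSectionVars false

namespace Cfsg.Agent.H69.M22Aut

open scoped commutatorElement
open Cfsg Cfsg.Agent.H97.M22 Cfsg.Agent.H17.UPoints Cfsg.Agent.H43.FischerTwins

variable {G : Type*} [Group G] [Finite G] {F : Type} [Field F] [Fintype F] [DecidableEq F]
  {D : Set G} {d a : G} {hF : Fintype.card F = 4} (P : Frame D d a hF) (hD : Data D hF)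
  (hA : AutData D) (hprim : Cfsg.IsPrimitiveUnderConj D) (h22 : Cfsg.IsOfTypeM22 G D)
include P hD hA hprim h22

theorem sq_Q0 {φ : MulAut G} (hφ : φ ∈ Q0 P hD hA) :
    φ * φ = 1 ∨ φ * φ = MulAut.conj (d * a) := by
  have hjj : (d * a) * (d * a) = 1 :=
    P.V_sq hD (mul_mem (Subgroup.subset_closure (by simp)) (Subgroup.subset_closure (by simp)))
  have hJJ : MulAut.conj (d * a) * MulAut.conj (d * a) = 1 := by rw [← map_mul, hjj, map_one]
  obtain ⟨J, hJ⟩ : ∃ J : MulAut G → Prop, ∀ g, J g ↔ (g = 1 ∨ g = MulAut.conj (d * a)) :=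
    ⟨fun g => g = 1 ∨ g = MulAut.conj (d * a), fun _ => Iff.rfl⟩
  rw [← hJ]
  have hmul : ∀ {g k : MulAut G}, J g → J k → J (g * k) := by
    intro g k hg hk
    rw [hJ] at hg hk ⊢
    rcases hg with rfl | rfl <;> rcases hk with rfl | rfl
    · exact Or.inl (one_mul 1)
    · exact Or.inr (one_mul _)
    · exact Or.inr (mul_one _)
    · exact Or.inl hJJ
  have hG : ∀ {g : G}, (g = 1 ∨ g = d * a) → J (MulAut.conj g) := by
    rintro g (rfl | rfl)
    · exact (hJ _).2 (Or.inl (map_one _))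
    · exact (hJ _).2 (Or.inr rfl)
  obtain ⟨t, ht, htd, hta⟩ := exists_t P hD hA hprim h22
  rcases cases_Q0 P hD hA hprim h22 ht htd hta hφ with ⟨x, hx, rfl⟩ | ⟨x, hx, rfl⟩
  · rw [← map_mul]
    exact hG (P.E_sq_j hD hx)
  · obtain ⟨v, hv⟩ : ∃ v, v = x⁻¹ * t x := ⟨_, rfl⟩
    have hv' : v = 1 ∨ v = d * a := hv ▸ t_comm P hD hA hprim h22 ht htd hta hx
    have hcen : Commute (t * t) (MulAut.conj x) := by
      rcases t_sq P hD hA hprim h22 ht htd hta with e | e <;> rw [e]
      · exact Commute.one_left _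
      · exact ((P.V_central hD (mul_mem (Subgroup.subset_closure (by simp))
          (Subgroup.subset_closure (by simp))) (P.E_le_K hD hx)).symm).map MulAut.conj
    have hcv : Commute (MulAut.conj v) (MulAut.conj x) := by
      rcases hv' with e | e <;> rw [e]
      · rw [map_one]; exact Commute.one_left _
      · exact ((P.V_central hD (mul_mem (Subgroup.subset_closure (by simp))
          (Subgroup.subset_closure (by simp))) (P.E_le_K hD hx)).symm).map MulAut.conj
    have htx : t * MulAut.conj x * t⁻¹ = MulAut.conj x * MulAut.conj v := by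
      rw [conj_map, ← map_mul, hv, mul_inv_cancel_left]
    have e : t * MulAut.conj x * (t * MulAut.conj x) =
        MulAut.conj (x * x) * MulAut.conj v * (t * t) := by
      calc t * MulAut.conj x * (t * MulAut.conj x)
          = t * MulAut.conj x * t⁻¹ * ((t * t) * MulAut.conj x) := by group
        _ = MulAut.conj x * MulAut.conj v * (MulAut.conj x * (t * t)) := by rw [htx, hcen.eq]
        _ = MulAut.conj x * (MulAut.conj v * MulAut.conj x) * (t * t) := by group
        _ = MulAut.conj (x * x) * MulAut.conj v * (t * t) := by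
            rw [hcv.eq, map_mul]; group
    rw [e]
    exact hmul (hmul (hG (P.E_sq_j hD hx)) (hG hv'))
      ((hJ _).2 (t_sq P hD hA hprim h22 ht htd hta))

omit hprim h22 in
theorem j_commute {φ : MulAut G} (hφ : φ ∈ CA d a) : Commute φ (MulAut.conj (d * a)) :=
  Subgroup.mem_centralizer_singleton_iff.1 hφ

omit hA hprim h22 in
theorem j_ne : (MulAut.conj (d * a) : MulAut G) ≠ 1 ∨ Subgroup.center G ≠ ⊥ := by
  by_contra hne
  push Not at hne
  have h := conj_injective hne.2 (hne.1.trans (map_one _).symm)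
  exact P.ha.2.1 ((eq_inv_of_mul_eq_one_right h).trans (H17.inv_self hD.cls.1 P.hd))

theorem mem_center_Q0 (x : ↥(Q0 P hD hA)) : x ∈ Subgroup.center ↥(Q0 P hD hA) ↔
    ((x : MulAut G) = 1 ∨ (x : MulAut G) = MulAut.conj (d * a)) := by
  constructor
  · intro hx
    exact eq_one_or_j P hD hA hprim h22 fun ψ hψ =>
      (congrArg Subtype.val (Subgroup.mem_center_iff.1 hx ⟨ψ, hψ⟩)).symm
  · intro hx
    refine Subgroup.mem_center_iff.2 fun y => Subtype.ext ?_
    show (y : MulAut G) * x = x * y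
    rcases hx with h | h <;> rw [h]
    · rw [mul_one, one_mul]
    · exact (j_commute P hD hA (Q0_le P hD hA y.2)).eq

theorem isExtraspecial_Q0 : Cfsg.IsExtraspecial 2 ↥(Q0 P hD hA) := by
  haveI : Fact (Nat.Prime 2) := ⟨Nat.prime_two⟩
  haveI := finite_aut (G := G)
  have hj1 : (MulAut.conj (d * a) : MulAut G) ≠ 1 :=
    (j_ne P hD).resolve_right (not_not_intro hA.center)
  have hcardZ : Nat.card (Subgroup.center ↥(Q0 P hD hA)) = 2 := by
    refine Nat.card_eq_two_iff.2 ⟨⟨1, one_mem _⟩,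
      ⟨⟨_, j_mem_Q0 P hD hA⟩, (mem_center_Q0 P hD hA hprim h22 _).2 (Or.inr rfl)⟩, ?_, ?_⟩
    · exact fun h => hj1 (congrArg (fun x : Subgroup.center ↥(Q0 P hD hA) => (x.1 : MulAut G)) h).symm
    · refine Set.eq_univ_of_forall fun x => ?_
      rcases (mem_center_Q0 P hD hA hprim h22 x.1).1 x.2 with h | h
      · exact Or.inl (Subtype.ext (Subtype.ext h))
      · exact Or.inr (Subtype.ext (Subtype.ext h))
  have hsq : ∀ x : ↥(Q0 P hD hA), x ^ 2 ∈ Subgroup.center ↥(Q0 P hD hA) := fun x => by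
    refine (mem_center_Q0 P hD hA hprim h22 _).2 ?_
    have := sq_Q0 P hD hA hprim h22 x.2
    simpa [pow_two] using this
  refine H24.isExtraspecial_of (IsPGroup.of_card (card_Q0 P hD hA)) hcardZ (fun h => ?_)
    (fun u v => ?_) hsq
  · have := hcardZ
    rw [h, Subgroup.card_top, card_Q0 P hD hA] at this
    norm_num at this
  · have e : ⁅u, v⁆ = u ^ 2 * (u⁻¹ * v) ^ 2 * (v ^ 2)⁻¹ := by
      rw [commutatorElement_def, pow_two, pow_two, pow_two]
      group
    rw [e]
    exact mul_mem (mul_mem (hsq _) (hsq _)) (inv_mem (hsq _))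

theorem center_map : (Subgroup.center ↥(Q0 P hD hA)).map (Q0 P hD hA).subtype =
    Subgroup.centralizer ((Q0 P hD hA : Subgroup (MulAut G)) : Set (MulAut G)) := by
  ext φ
  constructor
  · intro hφ
    obtain ⟨x, hx, rfl⟩ := Subgroup.mem_map.1 hφ
    exact Subgroup.mem_centralizer_iff.2 fun y hy =>
      congrArg Subtype.val (Subgroup.mem_center_iff.1 hx ⟨y, hy⟩)
  · intro hφ
    have h := eq_one_or_j P hD hA hprim h22 fun ψ hψ =>
      (Subgroup.mem_centralizer_iff.1 hφ ψ hψ).symm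
    have hmem : φ ∈ Q0 P hD hA := by
      rcases h with e | e <;> rw [e]
      · exact one_mem _
      · exact j_mem_Q0 P hD hA
    exact Subgroup.mem_map.2 ⟨⟨φ, hmem⟩, (mem_center_Q0 P hD hA hprim h22 _).2 h, rfl⟩

theorem centralizer_center_le : Subgroup.centralizer
    (((Subgroup.center ↥(Q0 P hD hA)).map (Q0 P hD hA).subtype : Subgroup (MulAut G)) :
      Set (MulAut G)) ≤ Subgroup.normalizer ((Q0 P hD hA : Subgroup (MulAut G)) : Set (MulAut G)) := by
  intro φ hφ
  have hC : φ ∈ CA d a := by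
    have hj : MulAut.conj (d * a) ∈
        (Subgroup.center ↥(Q0 P hD hA)).map (Q0 P hD hA).subtype :=
      Subgroup.mem_map.2 ⟨⟨MulAut.conj (d * a), j_mem_Q0 P hD hA⟩,
        (mem_center_Q0 P hD hA hprim h22 _).2 (Or.inr rfl), rfl⟩
    exact Subgroup.mem_centralizer_singleton_iff.2
      (Subgroup.mem_centralizer_iff.1 hφ (MulAut.conj (d * a)) hj).symm
  have key : ∀ {ψ : MulAut G}, ψ ∈ CA d a → ∀ x ∈ Q0 P hD hA, ψ * x * ψ⁻¹ ∈ Q0 P hD hA := by
    intro ψ hψ x hx
    obtain ⟨y, hy, rfl⟩ := Subgroup.mem_map.1 hx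
    obtain ⟨u, rfl⟩ : ∃ u : ↥(CA d a), (u : MulAut G) = ψ := ⟨⟨ψ, hψ⟩, rfl⟩
    have hn := (MonoidHom.normal_ker (rhoA P hD hA)).conj_mem y hy u
    refine Subgroup.mem_map.2 ⟨u * y * u⁻¹, hn, ?_⟩
    simp only [Subgroup.subtype_apply, Subgroup.coe_mul, Subgroup.coe_inv]
  refine Subgroup.mem_normalizer_iff.2 fun x => ⟨key hC x, fun h => ?_⟩
  have := key (inv_mem hC) _ h
  simpa [mul_assoc] using this

end Cfsg.Agent.H69.M22Aut
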