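import Cfsg.Agent.H69.M22Aut.Outer
import Cfsg.Agent.H97.Uniq.M22

/-!
A group of type M(22) has an automorphism that is not inner.
-/

set_option autoImplicit false

namespace Cfsg.Agent.H69.M22Aut

/-- A group of type M(22) has an outer automorphism. -/
theorem exists_outer {G : Type*} [Group G] [Finite G] {D : Set G}
    (hD : Cfsg.IsThreeTranspositionGroup D) (hprim : Cfsg.IsPrimitiveUnderConj D)
    (h22 : Cfsg.IsOfTypeM22 G D) {d : G} (hd : d ∈ D) :
    ∃ φ : MulAut G, φ ∉ (MulAut.conj : G →* MulAut G).range := by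
  obtain ⟨F, _, _, _, hF, E⟩ := H97.Uniq.exists_env hD hprim h22
  obtain ⟨ψ, hψ, hne⟩ := exists_good_outer E hd
  obtain ⟨e, -, -, he⟩ := H97.Uniq.m22_extend E E h22.1 h22.1 hd hd hψ
  refine ⟨e, ?_⟩
  rintro ⟨g, hg⟩
  exact hne g fun z hz => by rw [← he z hz, ← hg, MulAut.conj_apply]

end Cfsg.Agent.H69.M22Aut
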