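import Cfsg.Agent.H69.M22Aut.Espec
import Cfsg.Agent.H69.M22Aut.Indep
import Cfsg.Agent.H43.M22Order

/-!
The kernel normalises no nontrivial subgroup of odd order.
-/

set_option autoImplicit false
set_option linter.unusedSectionVars false

namespace Cfsg.Agent.H69.M22Aut

open Cfsg Cfsg.Agent.H97.M22 Cfsg.Agent.H17.UPoints Cfsg.Agent.H43.FischerTwins

theorem exponent_le_nine {p k : ℕ} (hp3 : 3 ≤ p)
    (h : p ^ k ∣ 2 ^ 17 * 3 ^ 9 * 5 ^ 2 * 7 * 11 * 13) : k ≤ 9 := by
  by_contra hk
  have h10 : p ^ 10 ∣ 2 ^ 17 * 3 ^ 9 * 5 ^ 2 * 7 * 11 * 13 :=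
    (Nat.pow_dvd_pow p (by omega)).trans h
  have hle := Nat.le_of_dvd (by norm_num) h10
  have hp : p < 25 := by
    by_contra hp
    have h25 := (Nat.pow_le_pow_left (not_lt.1 hp) 10).trans hle
    norm_num at h25
  interval_cases p <;> norm_num at h10

variable {G : Type*} [Group G] [Finite G] {F : Type} [Field F] [Fintype F] [DecidableEq F]
  {D : Set G} {d a : G} {hF : Fintype.card F = 4} (P : Frame D d a hF) (hD : Data D hF)
  (hA : AutData D) (hprim : Cfsg.IsPrimitiveUnderConj D) (h22 : Cfsg.IsOfTypeM22 G D)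
include P hD hprim h22

/-- No nontrivial subgroup of odd order of the group is invariant under `E`. -/
theorem odd_invariant_eq_bot (R : Subgroup G) (hodd : Odd (Nat.card R))
    (hinv : ∀ e ∈ P.E hD, ∀ x ∈ R, e * x * e⁻¹ ∈ R) : R = ⊥ := by
  classical
  have hjE := P.j_mem_E hD
  have hjj : (d * a) * (d * a) = 1 :=
    P.V_sq hD (mul_mem (Subgroup.subset_closure (by simp)) (Subgroup.subset_closure (by simp)))
  have hdis : ∀ {y : G}, y ∈ R → y ∈ P.E hD → y = 1 := by
    intro y hy hyE
    rw [← orderOf_eq_one_iff]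
    have h1 := Subgroup.orderOf_dvd_natCard R hy
    have h2 := Subgroup.orderOf_dvd_natCard _ hyE
    rw [P.card_E hD] at h2
    exact Nat.eq_one_of_dvd_coprimes (Nat.Coprime.pow_right _ (Nat.coprime_two_right.2 hodd)) h1 h2
  -- the product acts without fixed points
  have hfpf : ∀ x ∈ R, Commute x (d * a) → x = 1 := by
    intro x hx hxj
    have hxC : x ∈ P.C := Subgroup.mem_centralizer_singleton_iff.2 hxj.eq
    have hcE : ∀ e ∈ P.E hD, Commute x e := by
      intro e he
      have h1 : x * e * x⁻¹ * e⁻¹ ∈ P.E hD := mul_mem (P.E_conj hD hxC he) (inv_mem he)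
      have h2 : x * e * x⁻¹ * e⁻¹ ∈ R := by
        have := mul_mem hx (hinv e he _ (inv_mem hx))
        simpa [mul_assoc] using this
      have := hdis h2 h1
      rw [mul_inv_eq_one, mul_inv_eq_iff_eq_mul] at this
      exact this
    have hxK : x ∈ P.K := P.mem_K_iff.2
      ⟨hcE d (P.V_le_E hD (Subgroup.subset_closure (by simp))),
        hcE a (P.V_le_E hD (Subgroup.subset_closure (by simp)))⟩
    have hk : (⟨x, hxK⟩ : ↥P.K) ∈ (P.pi hD).ker :=
      P.mem_ker_of_commute hD fun e he => commute_coe.1 (hcE _ (Subgroup.mem_map_of_mem _ he))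
    exact hdis hx (Subgroup.mem_map_of_mem _ hk)
  -- it inverts
  have hneg : ∀ x ∈ R, (d * a) * x * (d * a)⁻¹ = x⁻¹ := by
    let ψ : ↥R →* ↥R :=
      (((MulAut.conj (d * a)).toMonoidHom).comp R.subtype).codRestrict R
        fun x => hinv _ hjE x x.2
    have h1 : MonoidHom.FixedPointFree ψ := fun x hx => by
      have h := congrArg Subtype.val hx
      exact Subtype.ext (hfpf x x.2 (mul_inv_eq_iff_eq_mul.1
        (show (d * a) * (x : G) * (d * a)⁻¹ = x from h)).symm)
    have h2 : Function.Involutive ψ := fun x => Subtype.ext (by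
      show (d * a) * ((d * a) * (x : G) * (d * a)⁻¹) * (d * a)⁻¹ = x
      calc (d * a) * ((d * a) * (x : G) * (d * a)⁻¹) * (d * a)⁻¹
          = ((d * a) * (d * a)) * (x : G) * ((d * a) * (d * a))⁻¹ := by group
        _ = x := by rw [hjj, one_mul, inv_one, mul_one])
    intro x hx
    exact congrArg Subtype.val (congrFun (h1.coe_eq_inv_of_involutive h2) ⟨x, hx⟩)
  have hcomm : ∀ x ∈ R, ∀ y ∈ R, Commute x y := by
    intro x hx y hy
    have h := hneg _ (mul_mem hx hy)
    rw [show (d * a) * (x * y) * (d * a)⁻¹ = ((d * a) * x * (d * a)⁻¹) *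
      ((d * a) * y * (d * a)⁻¹) by group, hneg x hx, hneg y hy, ← mul_inv_rev] at h
    exact (inv_injective h).symm
  by_contra hne
  have hcard : Nat.card R ≠ 1 := fun h => hne (Subgroup.card_eq_one.1 h)
  obtain ⟨p, hp, hpd⟩ := Nat.exists_prime_and_dvd hcard
  haveI : Fact p.Prime := ⟨hp⟩
  have hp3 : 3 ≤ p := by
    rcases hp.eq_two_or_odd with rfl | h
    · exact absurd (even_iff_two_dvd.2 hpd) (Nat.not_even_iff_odd.2 hodd)
    · have := hp.two_le; omega
  let X : Subgroup G :=
    { carrier := {x | x ∈ R ∧ x ^ p = 1}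
      one_mem' := ⟨one_mem _, one_pow _⟩
      mul_mem' := fun {x y} hx hy =>
        ⟨mul_mem hx.1 hy.1, by rw [(hcomm x hx.1 y hy.1).mul_pow, hx.2, hy.2, one_mul]⟩
      inv_mem' := fun {x} hx => ⟨inv_mem hx.1, by rw [inv_pow, hx.2, inv_one]⟩ }
  letI : CommGroup ↥X :=
    { (inferInstance : Group ↥X) with
      mul_comm := fun x y => Subtype.ext (hcomm x x.2.1 y y.2.1).eq }
  haveI : Nontrivial ↥X := by
    obtain ⟨x, hx⟩ := exists_prime_orderOf_dvd_card' (G := ↥R) p hpd
    have hxp : (x : G) ^ p = 1 := by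
      rw [← hx, ← Subgroup.orderOf_coe, pow_orderOf_eq_one]
    refine ⟨⟨⟨x, x.2, hxp⟩, 1, fun h => ?_⟩⟩
    have h' : (x : G) = 1 := congrArg Subtype.val h
    rw [← Subgroup.orderOf_coe, h', orderOf_one] at hx
    omega
  -- the action of `E`
  have hX : ∀ e ∈ P.E hD, ∀ x ∈ X, e * x * e⁻¹ ∈ X := fun e he x hx =>
    ⟨hinv e he x hx.1, by rw [conj_pow, hx.2, mul_one, mul_inv_cancel]⟩
  let cj : ↥(P.E hD) → Monoid.End ↥X := fun e =>
    (((MulAut.conj (e : G)).toMonoidHom).comp X.subtype).codRestrict X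
      fun x => hX e e.2 x x.2
  let ρ : ↥(P.E hD) →* Monoid.End ↥X :=
    { toFun := cj
      map_one' := MonoidHom.ext fun x => Subtype.ext (by
        show (1 : G) * (x : G) * (1 : G)⁻¹ = x
        simp)
      map_mul' := fun e e' => MonoidHom.ext fun x => Subtype.ext (by
        show ((e : G) * e') * (x : G) * ((e : G) * e')⁻¹ =
          (e : G) * ((e' : G) * (x : G) * (e' : G)⁻¹) * (e : G)⁻¹
        group) }
  choose w hwk hwm using fun m => P.exists_ker_muP hD m
  let σ : (Fin 4 → F) → ↥(P.E hD) := fun m => ⟨(w m : G), Subgroup.mem_map_of_mem _ (hwk m)⟩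
  let c : (Fin 4 → F) → (Fin 4 → F) → Prop := fun n m => (w n : G) * w m = w m * w n
  have hswap : ∀ n m, ¬ (w n : G) * w m = w m * w n →
      (w n : G) * w m = (d * a) * (w m * w n) := by
    intro n m h
    rcases P.E_comm_j hD (Subgroup.mem_map_of_mem _ (hwk n))
      (Subgroup.mem_map_of_mem _ (hwk m)) with e | e
    · rw [mul_inv_eq_one, mul_inv_eq_iff_eq_mul] at e
      exact absurd e h
    · rw [← e]
      simp only [Subgroup.subtype_apply]
      group
  haveI : Fact (2 < p) := ⟨by omega⟩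
  have hnc : ∀ n m, ¬ c n m → ∀ x, ρ (σ n * σ m) x = (ρ (σ m * σ n) x)⁻¹ := by
    intro n m h x
    refine Subtype.ext ?_
    show ((w n : G) * w m) * (x : G) * ((w n : G) * w m)⁻¹ =
      (((w m : G) * w n) * (x : G) * ((w m : G) * w n)⁻¹)⁻¹
    rw [hswap n m h, ← hneg _ (hinv _ (mul_mem (σ m).2 (σ n).2) x x.2.1)]
    simp only [σ]
    group
  have hsep : ∀ m m', m ≠ m' → ∃ n, ¬ (c n m ↔ c n m') := by
    intro m m' hmm
    have hz : w m * w m' ∈ (P.pi hD).ker := mul_mem (hwk m) (hwk m')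
    have hzV : ((w m * w m' : ↥P.K) : G) ∉ Subgroup.closure ({d, a} : Set G) := by
      rw [P.mem_V_iff_muP hD hz, map_mul,
        muP_mul hF ((P.mem_ker_pi hD _).1 (hwk m)) ((P.mem_ker_pi hD _).1 (hwk m')), hwm, hwm]
      intro h
      refine hmm (funext fun i => ?_)
      have hi : m i + m' i = 0 := congrFun h i
      calc m i = m i + (m' i + m' i) := by rw [add_self hF, add_zero]
        _ = m' i := by rw [← add_assoc, hi, zero_add]
    obtain ⟨e, he, hne⟩ : ∃ e ∈ (P.pi hD).ker, ¬ Commute (w m * w m') e := by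
      by_contra hall
      push Not at hall
      exact hzV (P.mem_V_of_commute hD hz hall)
    refine ⟨muP hF (P.phi e), fun heq => hne ?_⟩
    set n := muP hF (P.phi e) with hn
    obtain ⟨v, hv, hev⟩ : ∃ v : ↥P.K, (v : G) ∈ Subgroup.closure ({d, a} : Set G) ∧ w n * v = e := by
      refine ⟨(w n)⁻¹ * e, ?_, mul_inv_cancel_left _ _⟩
      rw [P.mem_V_iff_muP hD (mul_mem (inv_mem (hwk n)) he), map_mul, map_inv,
        muP_mul hF (inv_mem ((P.mem_ker_pi hD _).1 (hwk n))) ((P.mem_ker_pi hD e).1 he),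
        muP_inv hF ((P.mem_ker_pi hD _).1 (hwk n)), hwm, ← hn]
      exact funext fun i => add_self hF _
    rw [← hev]
    refine Commute.mul_right (commute_coe.1 ?_)
      (commute_coe.1 (P.V_central hD hv (w m * w m').2))
    show ((w m : G) * w m') * w n = w n * ((w m : G) * w m')
    by_cases h : (w n : G) * w m = w m * w n
    · have h' : (w n : G) * w m' = w m' * w n := by
        by_contra h'
        exact h' (heq.1 h)
      rw [← mul_assoc, h, mul_assoc, ← h', mul_assoc]
    · have h' : ¬ (w n : G) * w m' = w m' * w n := fun h' => h (heq.2 h')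
      have hJ : ∀ g : ↥P.K, Commute (g : G) (d * a) := fun g =>
        P.V_central hD (mul_mem (Subgroup.subset_closure (by simp))
          (Subgroup.subset_closure (by simp))) g.2
      rw [← mul_assoc (w n : G), hswap n m h, mul_assoc (d * a), mul_assoc (w m : G) (w n : G),
        hswap n m' h', ← mul_assoc (w m : G) (d * a), (hJ (w m)).eq, mul_assoc (d * a) (w m : G),
        ← mul_assoc (d * a) (d * a), hjj, one_mul, mul_assoc]
  obtain ⟨k, hpk, hle⟩ := exists_exponent (fun x : ↥X => Subtype.ext x.2.2) ρ σ c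
    (fun n m h => Subtype.ext h) hnc hsep
  have hk : k ≤ 9 := by
    refine exponent_le_nine hp3 ?_
    rw [← hpk, ← H43.M22.card_group hD.cls hprim h22]
    exact Subgroup.card_subgroup_dvd_card X
  rw [Fintype.card_pi_const, hF] at hle
  have := Nat.mul_le_mul hk hk
  norm_num at hle
  omega

include hA in
theorem odd_eq_bot (R : Subgroup (MulAut G)) (hodd : Odd (Nat.card R))
    (hn : Q0 P hD hA ≤ Subgroup.normalizer (R : Set (MulAut G))) : R = ⊥ := by
  have hR : R ≤ (MulAut.conj : G →* MulAut G).range := by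
    intro x hx
    by_contra hxR
    obtain ⟨m, hm⟩ := hodd
    have h1 : x ^ (2 * m + 1) = 1 := by
      rw [← hm, ← orderOf_dvd_iff_pow_eq_one]
      exact Subgroup.orderOf_dvd_natCard R hx
    rw [pow_succ', pow_mul] at h1
    have h2 : (x ^ 2) ^ m ∈ (MulAut.conj : G →* MulAut G).range :=
      pow_mem (by rw [pow_two]; exact hA.sq_mem x) m
    exact hxR (by rw [eq_inv_of_mul_eq_one_left h1]; exact inv_mem h2)
  have hmap : (R.comap MulAut.conj).map MulAut.conj = R :=
    Subgroup.map_comap_eq_self hR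
  have hc : Nat.card ↥(R.comap MulAut.conj) = Nat.card ↥R := by
    conv_rhs => rw [← hmap]
    rw [Subgroup.card_map_of_injective (conj_injective hA.center)]
  have hb := odd_invariant_eq_bot P hD hprim h22 (R.comap MulAut.conj) (hc ▸ hodd)
    fun e he x hx => by
      rw [Subgroup.mem_comap, map_mul, map_mul, map_inv]
      exact (Subgroup.mem_normalizer_iff.1 (hn ((conj_mem_Q0_iff P hD hA).2 he)) _).1 hx
  rw [← hmap, hb, Subgroup.map_bot]

end Cfsg.Agent.H69.M22Aut
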