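import Cfsg.Agent.H69.M22Aut.Large
import Cfsg.Agent.H89.M22.AutBound
import Cfsg.Agent.H87.M22.Aut
import Cfsg.Prelude.Def_MonsterType

/-!
The centraliser in the automorphism group, given one outer automorphism.
-/

set_option autoImplicit false
set_option linter.unusedSectionVars false

namespace Cfsg.Agent.H69.M22Aut

open Cfsg Cfsg.Agent.H97.M22 Cfsg.Agent.H17.UPoints Cfsg.Agent.H43.FischerTwins

/-- The statement on the centraliser, given one automorphism that is not inner. -/
theorem large_extraspecial {G : Type*} [Group G] [Finite G] {D : Set G}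
    (hD : Cfsg.IsThreeTranspositionGroup D) (hprim : Cfsg.IsPrimitiveUnderConj D)
    (h22 : Cfsg.IsOfTypeM22 G D) (htri : H43.M22.TwoTriples D)
    (hout : ∃ φ : MulAut G, φ ∉ (MulAut.conj : G →* MulAut G).range)
    (d₁ d₂ : G) (h₁ : d₁ ∈ D) (h₂ : d₂ ∈ D) (hne : d₁ ≠ d₂) (hc : Commute d₁ d₂)
    (j : MulAut G) (hj : j = MulAut.conj (d₁ * d₂)) (Q : Subgroup (MulAut G))
    (hQ : Q = (Cfsg.generalizedFittingSubgroup
      ↥(Subgroup.centralizer ({j} : Set (MulAut G)))).map
        (Subgroup.centralizer ({j} : Set (MulAut G))).subtype) :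
    Cfsg.IsLargeExtraspecial Q ∧ Nat.card Q = 2 ^ 11 ∧
      Q ≤ Subgroup.centralizer ({j} : Set (MulAut G)) ∧
      ∃ (_ : (Q.subgroupOf (Subgroup.centralizer ({j} : Set (MulAut G)))).Normal)
        (F : Type) (_ : Field F) (_ : Fintype F), Fintype.card F = 4 ∧
        Nonempty (↥(Subgroup.centralizer ({j} : Set (MulAut G))) ⧸
          Q.subgroupOf (Subgroup.centralizer ({j} : Set (MulAut G))) ≃*
            MulAut (Cfsg.PSU 4 F 2)) := by
  obtain ⟨F, _, _, _, hF, hdata⟩ := exists_data hD hprim h22 htri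
  obtain ⟨P⟩ := hdata.exists_frame h₁ (show d₂ ∈ Sset D d₁ from ⟨h₂, hne.symm, hc⟩)
  have hA : AutData D := autData_of_bound (H87.M22.aut_mem hD hprim h22) h22.1
    (H89.M22.card_aut_le hdata.cls hprim h22) hout
  subst hj
  obtain rfl : Q = Q0 P hdata hA := by
    rw [hQ, fitting_eq P hdata hA hprim h22]
  refine ⟨⟨isExtraspecial_Q0 P hdata hA hprim h22, (center_map P hdata hA hprim h22).symm,
    centralizer_center_le P hdata hA hprim h22, odd_eq_bot P hdata hA hprim h22⟩,
    card_Q0 P hdata hA, Q0_le P hdata hA, ?_⟩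
  have hk : (Q0 P hdata hA).subgroupOf (CA d₁ d₂) = (rhoA P hdata hA).ker := by
    rw [Subgroup.subgroupOf, Subgroup.comap_map_eq_self_of_injective
      (Subgroup.subtype_injective _)]
  have hn : ((Q0 P hdata hA).subgroupOf (CA d₁ d₂)).Normal := by
    rw [hk]; exact MonoidHom.normal_ker _
  obtain ⟨e⟩ := nonempty_SU_equiv_PSU hF
  exact ⟨hn, F, inferInstance, inferInstance, hF,
    ⟨((QuotientGroup.quotientMulEquivOfEq hk).trans
      (QuotientGroup.quotientKerEquivOfSurjective _ (rhoA_surjective P hdata hA))).trans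
        (MulAut.congr e)⟩⟩

end Cfsg.Agent.H69.M22Aut
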