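import Cfsg.Agent.H97.Uniq.Hex

/-!
A semilinear isomorphism of a star with nontrivial field part is no conjugation.
-/

set_option autoImplicit false
set_option linter.unusedSectionVars false

open Cfsg
open Cfsg.Agent.H17.UPoints Cfsg.Agent.H43.FischerTwins
open Cfsg.Agent.H43.Polar (IsFrame toFrame vec ev fv cx cy pair Iso xv)
open Cfsg.Agent.H97.Uniq

namespace Cfsg.Agent.H69.M22Aut

variable {G : Type*} [Group G] [Finite G] {D : Set G} {F : Type} [Field F] [Fintype F]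
  [DecidableEq F] {hF : Fintype.card F = 4}

/-- Conjugation by an element of the star's group is linear on the points. -/
theorem exists_linear {x : G} (R : Pts D x F hF) {g : G} (hg : g ∈ Subgroup.closure (Sset D x)) :
    ∃ L : (Fin 6 → F) →ₗ[F] (Fin 6 → F), ∀ v, v ≠ 0 → herm v v = 0 →
      (L v ≠ 0 ∧ herm (L v) (L v) = 0) ∧ g * R.pt v * g⁻¹ = R.pt (L v) := by
  have hmul : ∀ {p q : G},
      (∃ L : (Fin 6 → F) →ₗ[F] (Fin 6 → F), ∀ v, v ≠ 0 → herm v v = 0 →
        (L v ≠ 0 ∧ herm (L v) (L v) = 0) ∧ p * R.pt v * p⁻¹ = R.pt (L v)) →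
      (∃ L : (Fin 6 → F) →ₗ[F] (Fin 6 → F), ∀ v, v ≠ 0 → herm v v = 0 →
        (L v ≠ 0 ∧ herm (L v) (L v) = 0) ∧ q * R.pt v * q⁻¹ = R.pt (L v)) →
      (∃ L : (Fin 6 → F) →ₗ[F] (Fin 6 → F), ∀ v, v ≠ 0 → herm v v = 0 →
        (L v ≠ 0 ∧ herm (L v) (L v) = 0) ∧ (p * q) * R.pt v * (p * q)⁻¹ = R.pt (L v)) := by
    rintro p q ⟨L, hL⟩ ⟨M, hM⟩
    refine ⟨L.comp M, fun v h0 hv => ?_⟩
    obtain ⟨⟨m0, mv⟩, em⟩ := hM v h0 hv
    obtain ⟨hl, el⟩ := hL _ m0 mv
    refine ⟨hl, ?_⟩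
    rw [show p * q * R.pt v * (p * q)⁻¹ = p * (q * R.pt v * q⁻¹) * p⁻¹ by group, em, el]
    rfl
  have hone : ∃ L : (Fin 6 → F) →ₗ[F] (Fin 6 → F), ∀ v, v ≠ 0 → herm v v = 0 →
      (L v ≠ 0 ∧ herm (L v) (L v) = 0) ∧ (1 : G) * R.pt v * (1 : G)⁻¹ = R.pt (L v) :=
    ⟨LinearMap.id, fun v h0 hv => ⟨⟨h0, hv⟩, by simp⟩⟩
  induction hg using Subgroup.closure_induction with
  | mem y hy =>
    obtain ⟨u, hu0, huu, rfl⟩ := R.surj y hy
    let L : (Fin 6 → F) →ₗ[F] (Fin 6 → F) :=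
      { toFun := fun v => v + herm v u • u
        map_add' := fun v v' => by rw [herm_add_left hF, add_smul]; abel
        map_smul' := fun c v => by
          simp only [herm_smul_left hF, RingHom.id_apply, smul_add, smul_smul] }
    exact ⟨L, fun v h0 hv => ⟨third_iso hF huu h0 hv, R.conj u v hu0 huu h0 hv⟩⟩
  | one => exact hone
  | mul p q _ _ hp hq => exact hmul hp hq
  | inv p _ hp =>
    obtain ⟨k, hk⟩ : ∃ k : ℕ, p⁻¹ = p ^ k := by
      refine ⟨orderOf p - 1, ?_⟩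
      rw [eq_comm, eq_inv_iff_mul_eq_one, ← pow_succ, Nat.sub_add_cancel (orderOf_pos p),
        pow_orderOf_eq_one]
    rw [hk]
    clear hk
    induction k with
    | zero => rw [pow_zero]; exact hone
    | succ k ih => rw [pow_succ]; exact hmul ih hp

/-- A good isomorphism of two stars with prescribed roots of unity. -/
theorem exists_good_at (E : Env D F hF) {w w' : F} (hw : w + w ^ 2 = 1) (hw0 : w ≠ 0)
    (hw' : w' + w' ^ 2 = 1) (hw0' : w' ≠ 0) (hw1' : w' ≠ 1) {d : G} (hd : d ∈ D)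
    (R : Pts D d F hF) :
    ∃ (φ : G → G) (σ : F ≃+* F) (a b : Fin 3 → Fin 6 → F), σ w = w' ∧ IsFrame a b ∧
      Good D D d d φ ∧ ∀ v, v ≠ 0 → herm v v = 0 →
        φ (R.pt v) = R.pt (toFrame w' a b (sim w w' σ v)) := by
  classical
  obtain ⟨σ, hσ⟩ := exists_iso_field hF hw hF hw0' hw1'
  obtain ⟨p, S⟩ := exists_stdSix E hw hd R
  obtain ⟨q, S'⟩ := exists_stdSix E hw' hd R
  let c : Fin 3 → F := fun k => q k / σ (p k)
  have hc : ∀ k, c k ≠ 0 := fun k =>
    div_ne_zero (S'.full k) fun h => S.full k (σ.injective (by rw [h, map_zero]))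
  have hab : IsFrame (fun k => c k • ev w' k) (fun k => c k • fv w' k) := by
    refine ⟨fun i j => ?_, fun i j => ?_, fun i j => ?_⟩ <;>
      simp only [herm_smul_left hF, herm_smul_right hF, (herm_std hF hw' i j).1,
        (herm_std hF hw' i j).2.1, (herm_std hF hw' i j).2.2.1, mul_zero]
    rcases eq_or_ne i j with rfl | h
    · rw [if_pos rfl, mul_one, ← cube hF (hc i)]; ring
    · rw [if_neg h, mul_zero, mul_zero]
  obtain ⟨R'', hR''⟩ := R.exists_move hw' hab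
  obtain ⟨φ, L, hφ⟩ := exists_loc hw hw' σ (H17.class_group E.ctx.cls) hd hd R R''
  refine ⟨φ, σ, _, _, hσ, hab, ⟨L, six_of_one E hw hd L S.nodup rfl S.mem S.comm S.prod ?_⟩,
    fun v h0 hv => by rw [hφ v h0 hv, hR'']⟩
  have hi := fun k => (iso_std hF hw k).1
  have hi' := fun k => (iso_std hF hw' k).1
  have h1 : ∀ k, φ (R.pt (ev w k)) = R.pt (ev w' k) := fun k => by
    rw [hφ _ (hi k).1 (hi k).2, (sim_ev hF hw σ k).1, hR'', (toFrame_ev hF hw' k).1,
      R.smul _ _ (hc k) (hi' k).1 (hi' k).2]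
  have h2 : ∀ j : ℕ, φ (R.pt (xv w p j)) = R.pt (xv w' q j) := fun j => by
    have hx := H43.Polar.iso_x hF hw (x := fun k : Fin 3 => w ^ (j * (k : ℕ)) * p k)
      fun h => mul_ne_zero (pow_ne_zero _ hw0) (S.full 0) (congrFun h 0)
    rw [xv, hφ _ hx.1 hx.2, sim_vec hF hw, hR'']
    congr 1
    rw [H43.Polar.toFrame_vec hF hw']
    simp only [Pi.zero_apply, map_zero, zero_smul, zero_mul, add_zero, xv, ev,
      H43.Polar.vec_smul, smul_zero, Fin.sum_univ_three, H43.Polar.vec_add, smul_smul, zero_add]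
    refine congrArg₂ (vec w') (funext fun k => ?_) rfl
    have hp : σ (p k) ≠ 0 := fun h => S.full k (σ.injective (by rw [h, map_zero]))
    have e : ∀ m : ℕ, σ (w ^ m * p k) * c k = w' ^ m * q k := fun m => by
      rw [map_mul, map_pow, hσ, mul_assoc, mul_div_cancel₀ _ hp]
    fin_cases k
    · simpa using e 0
    · simpa using e j
    · simpa using e (j * 2)
  simp only [List.map_cons, List.map_nil, h1, h2]
  exact S'.prod

/-- Some good isomorphism of the star of `d` with itself is no conjugation. -/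
theorem exists_good_outer (E : Env D F hF) {d : G} (hd : d ∈ D) :
    ∃ φ, Good D D d d φ ∧ ∀ g : G, ¬ ∀ z ∈ Cn D d, φ z = g * z * g⁻¹ := by
  obtain ⟨w, hw0, hw1, hw⟩ := H43.exists_omega hF
  obtain ⟨R⟩ := E.models d hd
  have hw3 : w * w * w = 1 := cube hF hw0
  have hw' : w ^ 2 + (w ^ 2) ^ 2 = 1 := by linear_combination hw + w * hw3
  have hw1' : w ^ 2 ≠ 1 := fun h => hw1 (by linear_combination hw3 - w * h)
  obtain ⟨φ, σ, a, b, hσ, hab, hgood, hφ⟩ :=
    exists_good_at E hw hw0 hw' (pow_ne_zero _ hw0) hw1' hd R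
  refine ⟨φ, hgood, fun g hg => ?_⟩
  have hgd : g * d * g⁻¹ = d := by
    rw [← hg d ⟨hd, Commute.refl d⟩, hgood.base]
  obtain ⟨L, hL⟩ := exists_linear R
    (E.cent d hd g (mul_inv_eq_iff_eq_mul.1 hgd).symm)
  obtain ⟨S, hS⟩ : ∃ S : (Fin 6 → F) → (Fin 6 → F),
      ∀ v, S v = toFrame (w ^ 2) a b (sim w (w ^ 2) σ v) := ⟨_, fun _ => rfl⟩
  have hmul : ∀ v, v ≠ 0 → herm v v = 0 → ∃ c : F, c ≠ 0 ∧ S v = c • L v := by
    intro v h0 hv
    have hi : S v ≠ 0 ∧ herm (S v) (S v) = 0 := by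
      rw [hS]
      refine Pts.toFrame_iso hw' hF hab (sim_ne_zero hF hw hF hw' σ h0) ?_
      rw [sim_herm hF hw hF hw' σ, hv, map_zero]
    obtain ⟨hl, el⟩ := hL v h0 hv
    refine R.inj _ _ hi.1 hi.2 hl.1 hl.2 ?_
    rw [hS, ← hφ v h0 hv, hg _ (mem_cn_of_sset (R.mem v h0 hv)), el]
  obtain ⟨v, hv⟩ : ∃ v, v = (ev w 0 : Fin 6 → F) := ⟨_, rfl⟩
  obtain ⟨u, hu⟩ : ∃ u, u = (ev w 1 : Fin 6 → F) := ⟨_, rfl⟩
  have hcomb : ∀ α β : F, α ≠ 0 ∨ β ≠ 0 →
      α • v + β • u ≠ 0 ∧ herm (α • v + β • u) (α • v + β • u) = 0 := by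
    intro α β hab'
    subst hv hu
    have hs := fun i j => (herm_std hF hw i j).1
    refine ⟨fun h => ?_, ?_⟩
    · simp only [ev, H43.Polar.vec_smul, H43.Polar.vec_add] at h
      have h' := ((H43.Polar.vec_eq_zero hF hw).1 h).1
      have e0 := congrFun h' 0
      have e1 := congrFun h' 1
      simp [Pi.single_apply] at e0 e1
      rcases hab' with h | h
      · exact h e0
      · exact h e1
    · simp only [herm_add_left hF, herm_add_right hF, herm_smul_left hF, herm_smul_right hF, hs,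
        mul_zero, add_zero]
  have hind : ∀ α β : F, α • L v + β • L u = 0 → α = 0 ∧ β = 0 := by
    intro α β h
    by_contra hne
    have hc := hcomb α β (by
      by_contra h'
      push Not at h'
      exact hne h')
    exact (hL _ hc.1 hc.2).1.1 (by rw [map_add, map_smul, map_smul, h])
  have heq : ∀ α β α' β' : F, α • L v + β • L u = α' • L v + β' • L u → α = α' ∧ β = β' := by
    intro α β α' β' h
    have := hind (α - α') (β - β') (by rw [sub_smul, sub_smul, ← sub_eq_zero.2 h]; abel)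
    exact ⟨sub_eq_zero.1 this.1, sub_eq_zero.1 this.2⟩
  have hSadd : ∀ x y, S (x + y) = S x + S y := fun x y => by rw [hS, hS, hS, sim_add, map_add]
  have hSsmul : ∀ (r : F) x, S (r • x) = σ r • S x := fun r x => by
    rw [hS, hS, sim_smul, map_smul]
  have h1 := hcomb 1 0 (Or.inl one_ne_zero)
  have h2 := hcomb 0 1 (Or.inr one_ne_zero)
  have h3 := hcomb 1 1 (Or.inl one_ne_zero)
  have h4 := hcomb 1 w (Or.inl one_ne_zero)
  simp only [one_smul, zero_smul, add_zero, zero_add] at h1 h2 h3 h4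
  obtain ⟨p, -, hp⟩ := hmul v h1.1 h1.2
  obtain ⟨q, -, hq⟩ := hmul u h2.1 h2.2
  obtain ⟨r, -, hr⟩ := hmul _ h3.1 h3.2
  obtain ⟨s, hs0, hs⟩ := hmul _ h4.1 h4.2
  rw [hSadd, hp, hq, map_add, smul_add] at hr
  rw [hSadd, hSsmul, hp, hq, hσ, map_add, map_smul] at hs
  simp only [smul_add, smul_smul] at hs
  obtain ⟨hpr, hqr⟩ := heq _ _ _ _ hr
  obtain ⟨hps, hqs⟩ := heq _ _ _ _ hs
  have e : w ^ 2 * s = w * s := by
    have hq' : q = s := by rw [hqr, ← hpr, hps]
    rw [hq'] at hqs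
    linear_combination hqs
  exact hw1 (by
    have h' := mul_right_cancel₀ hs0 e
    have h'' : w * (w - 1) = 0 := by linear_combination h'
    exact sub_eq_zero.1 ((mul_eq_zero.1 h'').resolve_left hw0))

end Cfsg.Agent.H69.M22Aut
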