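import Cfsg.Agent.H69.M22Aut.Basic
import Cfsg.Agent.H69.M22Aut.Trace
import Cfsg.Agent.H43.M22Fix

/-!
An automorphism fixing two commuting members and inducing the identity on the quotient of their
centraliser is inner.
-/

set_option autoImplicit false
set_option linter.unusedSectionVars false

namespace Cfsg.Agent.H69.M22Aut

open Cfsg Cfsg.Agent.H97.M22 Cfsg.Agent.H17.UPoints Cfsg.Agent.H43.FischerTwins
open Cfsg.Agent.H23.AutPSU (semiHom semiAut semiAut_mk semiAut_mul guMap_one exists_semilinear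
  semiAut_mem_inn_iff detU normOne mem_normOne)

variable {G : Type*} [Group G] [Finite G] {F : Type} [Field F] [Fintype F] [DecidableEq F]
  {D : Set G} {d a : G} {hF : Fintype.card F = 4}

/-- An automorphism with determinant class of square one is inner. -/
theorem semiAut_inn_of_sq (hF : Fintype.card F = 4) (g : ↥(Cfsg.GU 6 F 2))
    (h : semiAut (g * g) (1 : F ≃+* F) ∈ Cfsg.Inn (Cfsg.PSU 6 F 2)) :
    semiAut g (1 : F ≃+* F) ∈ Cfsg.Inn (Cfsg.PSU 6 F 2) := by
  have hq := cardSq hF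
  rw [semiAut_mem_inn_iff hq (by norm_num)] at h ⊢
  have h3 : ∀ x : normOne F 2, x ^ 3 = 1 := fun x =>
    Subtype.ext (Units.ext (by simpa using mem_normOne.1 x.2))
  obtain ⟨c, hc⟩ := h
  refine ⟨1, ?_⟩
  rw [map_one]
  rw [powMonoidHom_apply, show c ^ 6 = (c ^ 3) ^ 2 by rw [← pow_mul], h3, one_pow, map_mul] at hc
  calc (1 : normOne F 2) = detU hq g ^ 3 := (h3 _).symm
    _ = detU hq g * detU hq g * detU hq g := by rw [pow_succ, pow_two]
    _ = detU hq g := by rw [← hc, one_mul]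

variable (P : Frame D d a hF) (hD : Data D hF) (hA : AutData D)
include P hD hA

theorem inner_of_trivial (hprim : Cfsg.IsPrimitiveUnderConj D) (h22 : Cfsg.IsOfTypeM22 G D)
    {φ : MulAut G} (hd : φ d = d) (ha : φ a = a) (hC : φ ∈ CA d a)
    (hρ : rhoA P hD hA ⟨φ, hC⟩ = 1) : φ ∈ (MulAut.conj : G →* MulAut G).range := by
  classical
  have hfix := (rhoA_eq_one P hD hA ⟨φ, hC⟩).1 hρ
  set Cd := Subgroup.centralizer ({d} : Set G) with hCd
  have hmap : ∀ x : ↥Cd, φ x ∈ Cd := fun x => by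
    have h := congrArg φ (Subgroup.mem_centralizer_singleton_iff.1 x.2)
    rw [map_mul, map_mul, hd] at h
    exact Subgroup.mem_centralizer_singleton_iff.2 h
  let res : ↥Cd →* ↥Cd := ((φ : G →* G).comp Cd.subtype).codRestrict Cd hmap
  have hres : Function.Surjective res :=
    Finite.surjective_of_injective fun x y h => Subtype.ext (φ.injective (congrArg Subtype.val h))
  have hker : P.N.φ.ker ≤ (P.N.φ.comp res).ker := fun x hx => by
    rw [MonoidHom.mem_ker, P.N.ker] at hx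
    rw [MonoidHom.mem_ker, MonoidHom.comp_apply, P.N.ker]
    rcases hx with h | h
    · exact Or.inl (show φ x = 1 by rw [h, map_one])
    · exact Or.inr (show φ x = d by rw [h, hd])
  let α0 : Cfsg.PSU 6 F 2 →* Cfsg.PSU 6 F 2 :=
    P.N.φ.liftOfSurjective P.N.surj ⟨P.N.φ.comp res, hker⟩
  have hα0 : ∀ x, α0 (P.N.φ x) = P.N.φ (res x) := fun x =>
    MonoidHom.liftOfRightInverse_comp_apply _ _ _ _ x
  have hsurj : Function.Surjective α0 := fun p => by
    obtain ⟨y, rfl⟩ := P.N.surj p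
    obtain ⟨x, rfl⟩ := hres y
    exact ⟨_, hα0 x⟩
  haveI : Finite (Cfsg.PSU 6 F 2) := Finite.of_surjective _ P.N.surj
  obtain ⟨α, hα⟩ : ∃ α : MulAut (Cfsg.PSU 6 F 2), ∀ p, α p = α0 p :=
    ⟨MulEquiv.ofBijective α0 ⟨Finite.injective_iff_surjective.2 hsurj, hsurj⟩, fun _ => rfl⟩
  have hαx : ∀ x, α (P.N.φ x) = P.N.φ (res x) := fun x => by rw [hα, hα0]
  obtain ⟨g, σ, rfl⟩ := exists_semilinear (cardSq hF) (by norm_num : 3 ≤ 6) (by norm_num) α
  -- the field part is trivial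
  have hst : ∀ h : ↥(Cfsg.SU 4 F 2), ∃ hy : semiHom g σ (blk h) ∈ pointStab F,
      piFour hF ⟨semiHom g σ (blk h), hy⟩ = h := by
    intro h
    obtain ⟨k, hk, hkpi⟩ := P.exists_blk hD h
    have e : mkP (semiHom g σ (blk h)) = P.phi (onK P hD hA ⟨φ, hC⟩ k) := by
      show semiAut g σ (mkP (blk h)) = _
      rw [← hk]
      exact hαx _
    obtain ⟨y, hy⟩ := mem_map_pointStab hF (P.phi_mem hD (onK P hD hA ⟨φ, hC⟩ k))
    have hyy : mkP (semiHom g σ (blk h)) = mkP y.1 := e.trans hy.symm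
    have hmem : semiHom g σ (blk h) ∈ pointStab F := by
      have hz := center_le_pointStab hF ((mkP_eq_iff hF).1 hyy.symm)
      have := mul_mem y.2 hz
      rwa [mul_inv_cancel_left] at this
    refine ⟨hmem, ?_⟩
    rw [piFour_congr hF (k := y) hyy]
    have h1 := hfix k
    rw [hkpi] at h1
    rw [← piP_mk hF y]
    refine Eq.trans ?_ h1
    show piP hF _ = piP hF ⟨P.phi (onK P hD hA ⟨φ, hC⟩ k), _⟩
    simp only [hy]
  obtain rfl : σ = 1 := sigma_of_induced hF g σ hst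
  -- the determinant part is trivial
  obtain ⟨k, hk⟩ := hA.sq_mem φ
  have hk' : ∀ x, φ (φ x) = k * x * k⁻¹ := fun x => by
    rw [← MulAut.conj_apply, hk, MulAut.mul_apply]
  have hkC : k ∈ Cd := Subgroup.mem_centralizer_singleton_iff.2
    (mul_inv_eq_iff_eq_mul.1 (by rw [← hk', hd, hd]))
  have hinn : semiAut (g * g) (1 : F ≃+* F) ∈ Cfsg.Inn (Cfsg.PSU 6 F 2) := by
    refine ⟨P.N.φ ⟨k, hkC⟩, MulEquiv.ext fun p => ?_⟩
    obtain ⟨x, rfl⟩ := P.N.surj p
    rw [show semiAut (g * g) (1 : F ≃+* F) = semiAut g 1 * semiAut g 1 by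
      rw [semiAut_mul, guMap_one, one_mul], MulAut.mul_apply, hαx, hαx, MulAut.conj_apply,
      ← map_inv, ← map_mul, ← map_mul]
    exact congrArg _ (Subtype.ext (hk' x).symm)
  obtain ⟨p, hp⟩ := semiAut_inn_of_sq hF g hinn
  obtain ⟨m, rfl⟩ := P.N.surj p
  -- correct by the inner automorphism
  obtain ⟨θ, hθdef⟩ : ∃ θ, θ = (MulAut.conj (m : G))⁻¹ * φ := ⟨_, rfl⟩
  have hθ : ∀ x, θ x = (m : G)⁻¹ * φ x * m := fun x => by
    rw [hθdef, MulAut.mul_apply, MulAut.conj_inv_apply]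
  have hmd := Subgroup.mem_centralizer_singleton_iff.1 m.2
  have hθd : θ d = d := by rw [hθ, hd, mul_assoc, ← hmd, inv_mul_cancel_left]
  have hθx : ∀ x ∈ Sset D d, θ x = x := by
    intro x hx
    have hS : θ x ∈ Sset D d := ⟨hA.pres θ x hx.1, fun e => hx.2.1 (θ.injective (e.trans hθd.symm)),
      by have := hx.2.2.map θ; rwa [hθd] at this⟩
    refine congrArg Subtype.val (P.N.inj ⟨θ x, sset_mem_cent hS⟩ ⟨x, sset_mem_cent hx⟩ hS hx ?_)
    have e : (⟨θ x, sset_mem_cent hS⟩ : ↥Cd) = m⁻¹ * res ⟨x, sset_mem_cent hx⟩ * m :=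
      Subtype.ext (hθ x)
    rw [e, map_mul, map_mul, map_inv, ← hαx, ← hp, MulAut.conj_apply]
    group
  have hmem : θ ∈ (MulAut.conj : G →* MulAut G).range := by
    rcases H43.M22.fix_global hD.cls hprim h22 P.hd θ (hA.pres θ) hθd hθx with h | h
    · exact ⟨1, MulEquiv.ext fun x => by simp [h x]⟩
    · exact ⟨d, MulEquiv.ext fun x => by simp [h x]⟩
  rw [hθdef] at hmem
  exact (Subgroup.mul_mem_cancel_left _ (inv_mem (MonoidHom.mem_range.2 ⟨_, rfl⟩))).1 hmem

end Cfsg.Agent.H69.M22Aut
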