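import Cfsg.Agent.H69.M22Aut.Core
import Cfsg.Agent.H69.M22Aut.Scalar

/-!
An element of the kernel exchanging the two members: its commutators with `E` and its square.
-/

set_option autoImplicit false
set_option linter.unusedSectionVars false

namespace Cfsg.Agent.H69.M22Aut

open Cfsg Cfsg.Agent.H97.M22 Cfsg.Agent.H17.UPoints Cfsg.Agent.H43.FischerTwins

variable {G : Type*} [Group G] [Finite G] {F : Type} [Field F] [Fintype F] [DecidableEq F]
  {D : Set G} {d a : G} {hF : Fintype.card F = 4} (P : Frame D d a hF) (hD : Data D hF)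
  (hA : AutData D)
include P hD hA

omit hA in
/-- Conjugation by any element of `K` on the module vectors. -/
theorem muP_conj_any (k : ↥P.K) {e : ↥P.K} (he : e ∈ (P.pi hD).ker) :
    muP hF (P.phi (k * e * k⁻¹)) = act (P.pi hD k) (muP hF (P.phi e)) := by
  obtain ⟨y, hy, hpy⟩ := P.exists_blk hD (P.pi hD k)
  obtain ⟨r, hr, hkr⟩ : ∃ r ∈ (P.pi hD).ker, k = y * r :=
    ⟨y⁻¹ * k, MonoidHom.mem_ker.2 (by rw [map_mul, map_inv, hpy, inv_mul_cancel]),
      (mul_inv_cancel_left y k).symm⟩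
  have hR := (P.mem_ker_pi hD e).1 he
  have hR' := (P.mem_ker_pi hD r).1 hr
  have hmem : P.phi (r * e * r⁻¹) ∈ radP hF := by
    rw [map_mul, map_mul, map_inv]; exact mul_mem (mul_mem hR' hR) (inv_mem hR')
  have hmu : muP hF (P.phi (r * e * r⁻¹)) = muP hF (P.phi e) := by
    rw [map_mul, map_mul, map_inv, muP_mul hF (mul_mem hR' hR) (inv_mem hR'), muP_mul hF hR' hR,
      muP_inv hF hR', add_comm (muP hF (P.phi r)) (muP hF (P.phi e)), add_assoc]
    funext i
    simp only [Pi.add_apply]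
    rw [add_self hF, add_zero]
  rw [show k * e * k⁻¹ = y * (r * e * r⁻¹) * y⁻¹ by rw [hkr]; group, map_mul, map_mul, map_inv, hy,
    (muP_conj hF (P.pi hD k) hmem).2, hmu]

variable (hprim : Cfsg.IsPrimitiveUnderConj D) (h22 : Cfsg.IsOfTypeM22 G D)
include hprim h22

omit hprim h22 in
theorem onK_conj_mem {t : MulAut G} (hC : t ∈ CA d a) (ht : rhoA P hD hA ⟨t, hC⟩ = 1) (k : ↥P.K) :
    k⁻¹ * onK P hD hA ⟨t, hC⟩ k ∈ (P.pi hD).ker := by
  rw [MonoidHom.mem_ker, map_mul, map_inv, (rhoA_eq_one P hD hA _).1 ht k, inv_mul_cancel]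

theorem t_vec {t : MulAut G} (ht : t ∈ Q0 P hD hA) (hC : t ∈ CA d a) (htd : t d = a) (hta : t a = d)
    {e : ↥P.K} (he : e ∈ (P.pi hD).ker) :
    muP hF (P.phi (onK P hD hA ⟨t, hC⟩ e)) = muP hF (P.phi e) := by
  have h1 : rhoA P hD hA ⟨t, hC⟩ = 1 := ((mem_Q0_iff P hD hA).1 ht).2
  set τ := onK P hD hA ⟨t, hC⟩ with hτ
  have hker : ∀ {x : ↥P.K}, x ∈ (P.pi hD).ker → τ x ∈ (P.pi hD).ker := fun {x} hx =>
    ker_le P hD hA ⟨t, hC⟩ hx
  have hmu : ∀ {x y : ↥P.K}, x ∈ (P.pi hD).ker → y ∈ (P.pi hD).ker →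
      muP hF (P.phi (x * y)) = muP hF (P.phi x) + muP hF (P.phi y) := fun {x y} hx hy => by
    rw [map_mul, muP_mul hF ((P.mem_ker_pi hD x).1 hx) ((P.mem_ker_pi hD y).1 hy)]
  have hwd : ∀ {x y : ↥P.K}, x ∈ (P.pi hD).ker → y ∈ (P.pi hD).ker →
      muP hF (P.phi x) = muP hF (P.phi y) → muP hF (P.phi (τ x)) = muP hF (P.phi (τ y)) := by
    intro x y hx hy h
    have hxy := mul_mem (inv_mem hx) hy
    have hV : ((x⁻¹ * y : ↥P.K) : G) ∈ Subgroup.closure ({d, a} : Set G) := by
      rw [P.mem_V_iff_muP hD hxy, map_mul, map_inv,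
        muP_mul hF (inv_mem ((P.mem_ker_pi hD x).1 hx)) ((P.mem_ker_pi hD y).1 hy),
        muP_inv hF ((P.mem_ker_pi hD x).1 hx), h]
      exact funext fun i => add_self hF _
    have hV' : ((τ (x⁻¹ * y) : ↥P.K) : G) ∈ Subgroup.closure ({d, a} : Set G) := by
      rw [hτ, coe_onK]
      rcases (P.mem_V_iff hD).1 hV with e | e | e | e <;> rw [e]
      · rw [map_one]; exact one_mem _
      · rw [htd]; exact Subgroup.subset_closure (by simp)
      · rw [hta]; exact Subgroup.subset_closure (by simp)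
      · rw [map_mul, htd, hta]
        exact mul_mem (Subgroup.subset_closure (by simp)) (Subgroup.subset_closure (by simp))
    have h0 := (P.mem_V_iff_muP hD (hker hxy)).1 hV'
    conv_rhs => rw [show y = x * (x⁻¹ * y) from (mul_inv_cancel_left x y).symm, map_mul τ,
      hmu (hker hx) (hker hxy), h0, add_zero]
  choose s hsk hsm using fun m => P.exists_ker_muP hD m
  let T : (Fin 4 → F) → (Fin 4 → F) := fun m => muP hF (P.phi (τ (s m)))
  have hTe : ∀ {x : ↥P.K}, x ∈ (P.pi hD).ker →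
      muP hF (P.phi (τ x)) = T (muP hF (P.phi x)) := fun {x} hx =>
    hwd hx (hsk _) (hsm _).symm
  have hτk : ∀ k : ↥P.K, P.pi hD (τ k) = P.pi hD k := (rhoA_eq_one P hD hA _).1 h1
  have key : ∀ m, T m = m := eq_id_of_commute hF T
    (fun m n => by
      have h := hTe (mul_mem (hsk m) (hsk n))
      rw [map_mul τ, hmu (hker (hsk m)) (hker (hsk n)), hmu (hsk m) (hsk n), hsm, hsm] at h
      exact h.symm)
    (fun h m => by
      obtain ⟨k, rfl⟩ := P.pi_surjective hD h
      have hk := hTe ((MonoidHom.normal_ker (P.pi hD)).conj_mem _ (hsk m) k)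
      rw [map_mul τ, map_mul τ, map_inv τ, muP_conj_any P hD (τ k) (hker (hsk m)), hτk,
        muP_conj_any P hD k (hsk m), hsm] at hk
      exact hk.symm)
    (fun m => by
      obtain ⟨x, hx, hxe⟩ := exists_conj_of_fix P hD hA hprim h22 (mul_mem ht ht)
        (show t (t d) = d by rw [htd, hta])
      obtain ⟨u, hu, rfl⟩ := Subgroup.mem_map.1 hx
      rw [show T (T m) = T (muP hF (P.phi (τ (s m)))) from rfl, ← hTe (hker (hsk m))]
      have hee : τ (τ (s m)) = u * s m * u⁻¹ := Subtype.ext (by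
        have := DFunLike.congr_fun hxe (s m : G)
        rw [MulAut.mul_apply] at this
        exact this.symm)
      rw [hee, muP_conj_any P hD u (hsk m), MonoidHom.mem_ker.1 hu, act_one, hsm])
  rw [hTe he, key]

/-- The commutators of the swap with `E` are trivial or the product. -/
theorem t_comm {t : MulAut G} (ht : t ∈ Q0 P hD hA) (htd : t d = a) (hta : t a = d) {x : G}
    (hx : x ∈ P.E hD) : x⁻¹ * t x = 1 ∨ x⁻¹ * t x = d * a := by
  classical
  have hC := Q0_le P hD hA ht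
  have h1 : rhoA P hD hA ⟨t, hC⟩ = 1 := ((mem_Q0_iff P hD hA).1 ht).2
  set τ := onK P hD hA ⟨t, hC⟩ with hτ
  obtain ⟨J, hJ⟩ : ∃ J : G → Prop, ∀ g, J g ↔ (g = 1 ∨ g = d * a) :=
    ⟨fun g => g = 1 ∨ g = d * a, fun _ => Iff.rfl⟩
  rw [← hJ]
  have hjj : (d * a) * (d * a) = 1 :=
    P.V_sq hD (mul_mem (Subgroup.subset_closure (by simp)) (Subgroup.subset_closure (by simp)))
  have hmul : ∀ {g k : G}, J g → J k → J (g * k) := by
    intro g k hg hk
    rw [hJ] at hg hk ⊢
    rcases hg with rfl | rfl <;> rcases hk with rfl | rfl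
    · exact Or.inl (one_mul 1)
    · exact Or.inr (one_mul _)
    · exact Or.inr (mul_one _)
    · exact Or.inl hjj
  obtain ⟨v, hv⟩ : ∃ v : ↥P.K → G, ∀ e, v e = (e : G)⁻¹ * t e := ⟨fun e => _, fun _ => rfl⟩
  have hvV : ∀ {e : ↥P.K}, e ∈ (P.pi hD).ker → v e ∈ Subgroup.closure ({d, a} : Set G) := by
    intro e he
    have hm := mul_mem (inv_mem he) (ker_le P hD hA ⟨t, hC⟩ he)
    have h := (P.mem_V_iff_muP hD hm).2 (by
      rw [map_mul, map_inv, muP_mul hF (inv_mem ((P.mem_ker_pi hD e).1 he))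
        ((P.mem_ker_pi hD _).1 (ker_le P hD hA ⟨t, hC⟩ he)), muP_inv hF ((P.mem_ker_pi hD e).1 he)]
      rw [show muP hF (P.phi ((onK P hD hA ⟨t, hC⟩) e)) = muP hF (P.phi e) from
        t_vec P hD hA hprim h22 ht hC htd hta he]
      exact funext fun i => add_self hF _)
    rw [hv]
    exact h
  have hprod : ∀ {e f : ↥P.K}, e ∈ (P.pi hD).ker → v (e * f) = v e * v f := by
    intro e f he
    have hc := P.V_central hD (hvV he) f.2
    calc v (e * f) = (f : G)⁻¹ * (v e * t f) := by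
          rw [hv, hv, Subgroup.coe_mul, map_mul]; group
      _ = v e * ((f : G)⁻¹ * t f) := by
          rw [← mul_assoc, hc.inv_left.eq, mul_assoc]
      _ = v e * v f := by rw [← hv]
  let Good : (Fin 4 → F) → Prop := fun m =>
    ∀ e ∈ (P.pi hD).ker, muP hF (P.phi e) = m → J (v e)
  have hmu : ∀ {e f : ↥P.K}, e ∈ (P.pi hD).ker → f ∈ (P.pi hD).ker →
      muP hF (P.phi (e * f)) = muP hF (P.phi e) + muP hF (P.phi f) := fun {e f} he hf => by
    rw [map_mul, muP_mul hF ((P.mem_ker_pi hD e).1 he) ((P.mem_ker_pi hD f).1 hf)]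
  have hdep : ∀ {e e' : ↥P.K}, e ∈ (P.pi hD).ker → e' ∈ (P.pi hD).ker →
      muP hF (P.phi e) = muP hF (P.phi e') → J (v e) → J (v e') := by
    intro e e' he he' h hJe
    have hw := mul_mem (inv_mem he) he'
    have hV : ((e⁻¹ * e' : ↥P.K) : G) ∈ Subgroup.closure ({d, a} : Set G) := by
      rw [P.mem_V_iff_muP hD hw, map_mul, map_inv,
        muP_mul hF (inv_mem ((P.mem_ker_pi hD e).1 he)) ((P.mem_ker_pi hD e').1 he'),
        muP_inv hF ((P.mem_ker_pi hD e).1 he), h]
      exact funext fun i => add_self hF _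
    rw [show e' = e * (e⁻¹ * e') from (mul_inv_cancel_left e e').symm, hprod he]
    refine hmul hJe ?_
    rw [hJ, hv]
    have hdd := hD.sq P.hd
    have haa := hD.sq P.ha.1
    rcases (P.mem_V_iff hD).1 hV with h | h | h | h <;> rw [h]
    · exact Or.inl (by rw [map_one, inv_one, one_mul])
    · exact Or.inr (by rw [htd, inv_eq_of_mul_eq_one_right hdd])
    · exact Or.inr (by rw [hta, inv_eq_of_mul_eq_one_right haa, P.ha.2.2.eq])
    · refine Or.inl ?_
      rw [map_mul, htd, hta, inv_eq_of_mul_eq_one_right hjj, ← P.ha.2.2.eq, hjj]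
  have hadd : ∀ {m n}, Good m → Good n → Good (m + n) := by
    intro m n hm hn e he hem
    obtain ⟨p, hp, hpm⟩ := P.exists_ker_muP hD m
    obtain ⟨q, hq, hqn⟩ := P.exists_ker_muP hD n
    refine hdep (mul_mem hp hq) he (by rw [hem, hmu hp hq, hpm, hqn]) ?_
    rw [hprod hp]
    exact hmul (hm p hp hpm) (hn q hq hqn)
  -- invariance
  have hinv : ∀ (k : ↥P.K) {e : ↥P.K}, e ∈ (P.pi hD).ker →
      ∃ c, J c ∧ v (k * e * k⁻¹) = c * v e := by
    intro k e he
    obtain ⟨u, hu⟩ : ∃ u : ↥P.K, u = k⁻¹ * τ k := ⟨_, rfl⟩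
    have huk : u ∈ (P.pi hD).ker := hu ▸ onK_conj_mem P hD hA hC h1 k
    have htk : t k = (k : G) * u := by
      rw [hu, Subgroup.coe_mul, Subgroup.coe_inv, hτ, coe_onK, mul_inv_cancel_left]
    have hc := P.E_comm_j hD (x := ((e⁻¹ : ↥P.K) : G)) (y := (u : G))
      (Subgroup.mem_map_of_mem _ (inv_mem he)) (Subgroup.mem_map_of_mem _ huk)
    refine ⟨_, (hJ _).2 hc, ?_⟩
    have hte : t e = (e : G) * v e := by rw [hv, mul_inv_cancel_left]
    have hcu : Commute ((u : G)⁻¹) (v e) :=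
      (P.V_central hD (hvV he) u.2).inv_left
    have hck : Commute ((k : G)) ((e : G)⁻¹ * (u : G) * (e : G) * (u : G)⁻¹ * v e) := by
      refine P.V_central hD (mul_mem ?_ (hvV he)) k.2
      have := P.ker_comm hD (inv_mem he) huk
      simpa using this
    have hgoal : v (k * e * k⁻¹) =
        (k : G) * ((e : G)⁻¹ * (u : G) * (e : G) * (u : G)⁻¹ * v e) * (k : G)⁻¹ := by
      rw [hv]
      simp only [Subgroup.coe_mul, Subgroup.coe_inv, map_mul, map_inv, htk, hte]
      calc ((k : G) * (e : G) * (k : G)⁻¹)⁻¹ *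
            ((k : G) * (u : G) * ((e : G) * v e) * ((k : G) * (u : G))⁻¹)
          = (k : G) * (e : G)⁻¹ * (u : G) * (e : G) * (v e * (u : G)⁻¹) * (k : G)⁻¹ := by group
        _ = (k : G) * ((e : G)⁻¹ * (u : G) * (e : G) * (u : G)⁻¹ * v e) * (k : G)⁻¹ := by
            rw [← hcu.eq]; group
    rw [hgoal, hck.eq, mul_inv_cancel_right]
    simp only [Subgroup.coe_inv, inv_inv]
  have hsingle : ∀ (i : Fin 4) (c : F), Good (Pi.single i c) := by
    intro i c
    obtain ⟨l, hl0, hl1⟩ := exists_gen hF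
    obtain ⟨h, hh⟩ := exists_diag hF (fun t => if t = i then l else if t = i + 1 then l ^ 2 else 1)
      (fun t => by split_ifs <;> simp [hl0]) (by
        fin_cases i <;> simp [Fin.prod_univ_four] <;> linear_combination cube hF hl0)
    obtain ⟨k, hk, -⟩ := P.exists_blk hD h
    have hnrm := MonoidHom.normal_ker (P.pi hD)
    obtain ⟨p, hp, hpm⟩ := P.exists_ker_muP hD (Pi.single i c)
    have hcj : ∀ q : ↥P.K, q ∈ (P.pi hD).ker → ∀ b : F, muP hF (P.phi q) = Pi.single i b →
        muP hF (P.phi (k * q * k⁻¹)) = Pi.single i (l * b) := by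
      intro q hq b hqb
      rw [map_mul, map_mul, map_inv, hk, (muP_conj hF h ((P.mem_ker_pi hD q).1 hq)).2, hqb, hh,
        if_pos rfl]
    have hp1 := hnrm.conj_mem p hp k
    have hp2 := hnrm.conj_mem _ hp1 k
    have p1 := hcj p hp c hpm
    have p2 := hcj _ hp1 (l * c) p1
    obtain ⟨c1, hc1, e1⟩ := hinv k hp
    obtain ⟨c2, hc2, e2⟩ := hinv k hp1
    have hsq : v p * v p = 1 := P.V_sq hD (hvV hp)
    have hsum : muP hF (P.phi (p * (k * p * k⁻¹))) =
        muP hF (P.phi (k * (k * p * k⁻¹) * k⁻¹)) := by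
      rw [hmu hp hp1, hpm, p1, p2, ← Pi.single_add]
      congr 1
      linear_combination -c * gen_rel hF hl0 hl1 + (c + l * c) * add_self hF (1 : F)
    have hjc : Commute (v p) c1 := by
      rcases (hJ c1).1 hc1 with rfl | rfl
      · exact Commute.one_right _
      · exact P.V_central hD (mul_mem (Subgroup.subset_closure (by simp))
          (Subgroup.subset_closure (by simp))) (P.V_le hD (hvV hp))
    have hA1 : J (v (p * (k * p * k⁻¹))) := by
      rw [hprod hp, e1, ← mul_assoc, hjc.eq, mul_assoc, hsq, mul_one]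
      exact hc1
    have hA2 := hdep (mul_mem hp hp1) hp2 hsum hA1
    rw [e2, e1, ← mul_assoc] at hA2
    have hinvJ : ∀ {g : G}, J g → g * g = 1 := fun {g} hg => by
      rcases (hJ g).1 hg with rfl | rfl
      · exact one_mul 1
      · exact hjj
    have hvp : J (v p) := by
      have h3 : v p = (c2 * c1) * (c2 * c1 * v p) := by
        rw [← mul_assoc, hinvJ (hmul hc2 hc1), one_mul]
      rw [h3]
      exact hmul (hmul hc2 hc1) hA2
    intro e he hem
    exact hdep hp he (hpm.trans hem.symm) hvp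
  obtain ⟨e, he, rfl⟩ := Subgroup.mem_map.1 hx
  have hm : muP hF (P.phi e) = ∑ i, Pi.single i (muP hF (P.phi e) i) :=
    (Finset.univ_sum_single _).symm
  have := (?_ : Good (muP hF (P.phi e))) e he rfl
  · rwa [hv] at this
  rw [hm, Fin.sum_univ_four]
  exact hadd (hadd (hadd (hsingle _ _) (hsingle _ _)) (hsingle _ _)) (hsingle _ _)

theorem t_sq {t : MulAut G} (ht : t ∈ Q0 P hD hA) (htd : t d = a) (hta : t a = d) :
    t * t = 1 ∨ t * t = MulAut.conj (d * a) := by
  obtain ⟨x, hx, hxe⟩ := exists_conj_of_fix P hD hA hprim h22 (mul_mem ht ht)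
    (show t (t d) = d by rw [htd, hta])
  obtain ⟨u, hu, rfl⟩ := Subgroup.mem_map.1 hx
  rw [← hxe]
  have htj : t (d * a) = d * a := by rw [map_mul, htd, hta, P.ha.2.2.eq]
  have hV : (u : G) ∈ Subgroup.closure ({d, a} : Set G) := by
    refine P.mem_V_of_commute hD hu fun e he => commute_coe.1 ?_
    have heE : (e : G) ∈ P.E hD := Subgroup.mem_map_of_mem _ he
    refine mul_inv_eq_iff_eq_mul.1 ?_
    have h := DFunLike.congr_fun hxe (e : G)
    rw [MulAut.conj_apply, MulAut.mul_apply] at h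
    refine h.trans ?_
    obtain ⟨v, hv⟩ : ∃ v, v = (e : G)⁻¹ * t e := ⟨_, rfl⟩
    have hte : t e = (e : G) * v := by rw [hv, mul_inv_cancel_left]
    have hv' : v = 1 ∨ v = d * a := hv ▸ t_comm P hD hA hprim h22 ht htd hta heE
    rw [hte, map_mul, hte, mul_assoc]
    rcases hv' with e' | e' <;> rw [e']
    · rw [map_one, mul_one, mul_one]
    · rw [htj, P.V_sq hD (mul_mem (Subgroup.subset_closure (by simp))
        (Subgroup.subset_closure (by simp))), mul_one]
  have hfix : t (u : G) = u := by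
    refine conj_injective hA.center ?_
    rw [← conj_map]
    show t * MulAut.conj (P.K.subtype u) * t⁻¹ = MulAut.conj (P.K.subtype u)
    rw [hxe, ← mul_assoc, mul_inv_cancel_right]
  rcases (P.mem_V_iff hD).1 hV with h | h | h | h
  · exact Or.inl (by rw [show P.K.subtype u = (u : G) from rfl, h, map_one])
  · rw [h, htd] at hfix; exact absurd hfix P.ha.2.1
  · rw [h, hta] at hfix; exact absurd hfix.symm P.ha.2.1
  · exact Or.inr (by rw [show P.K.subtype u = (u : G) from rfl, h])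

end Cfsg.Agent.H69.M22Aut
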